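import Mathlib

/-!
A commutative subgroup, viewed as an additive group, with the conjugation action of a group
normalizing it.
-/

set_option autoImplicit false
set_option linter.unusedSectionVars false
set_option linter.unusedSimpArgs false
set_option linter.unusedVariables false

namespace Cfsg.Agent.Lib.SLFpf

variable {G : Type*} [Group G]

/-- A subgroup with a commutativity certificate, as a type. -/
@[ext] structure AbSub (N : Subgroup G) (h : ∀ a ∈ N, ∀ b ∈ N, a * b = b * a) where
  val : G
  mem : val ∈ N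

namespace AbSub

variable {N : Subgroup G} {h : ∀ a ∈ N, ∀ b ∈ N, a * b = b * a}

instance : Add (AbSub N h) := ⟨fun a b => ⟨a.val * b.val, N.mul_mem a.mem b.mem⟩⟩
instance : Zero (AbSub N h) := ⟨⟨1, N.one_mem⟩⟩
instance : Neg (AbSub N h) := ⟨fun a => ⟨a.val⁻¹, N.inv_mem a.mem⟩⟩

instance : AddCommGroup (AbSub N h) where
  add_assoc a b c := AbSub.ext (mul_assoc _ _ _)
  zero_add a := AbSub.ext (one_mul _)
  add_zero a := AbSub.ext (mul_one _)
  nsmul := nsmulRec
  zsmul := zsmulRec
  neg_add_cancel a := AbSub.ext (inv_mul_cancel _)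
  add_comm a b := AbSub.ext (h _ a.mem _ b.mem)

@[simp] lemma add_val (a b : AbSub N h) : (a + b).val = a.val * b.val := rfl
@[simp] lemma zero_val : (0 : AbSub N h).val = 1 := rfl
@[simp] lemma neg_val (a : AbSub N h) : (-a).val = a.val⁻¹ := rfl

lemma nsmul_val (n : ℕ) (a : AbSub N h) : (n • a).val = a.val ^ n := by
  induction n with
  | zero => simp
  | succ k ih => rw [succ_nsmul, add_val, ih, pow_succ]

instance [Finite G] : Finite (AbSub N h) :=
  Finite.of_injective (fun a : AbSub N h => a.val) (fun a b hab => AbSub.ext hab)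

/-- Conjugation. -/
def act (N : Subgroup G) (h : ∀ a ∈ N, ∀ b ∈ N, a * b = b * a) [hn : N.Normal] :
    G →* AddMonoid.End (AbSub N h) where
  toFun g :=
    { toFun := fun a => ⟨g * a.val * g⁻¹, hn.conj_mem _ a.mem g⟩
      map_zero' := AbSub.ext (by simp)
      map_add' := fun a b => AbSub.ext (by simp [mul_assoc]) }
  map_one' := by
    ext a
    change (1 : G) * a.val * 1⁻¹ = a.val
    simp
  map_mul' := by
    intro g g'
    ext a
    change g * g' * a.val * (g * g')⁻¹ = g * (g' * a.val * g'⁻¹) * g⁻¹
    group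

@[simp] lemma act_val [N.Normal] (g : G) (a : AbSub N h) : (act N h g a).val = g * a.val * g⁻¹ := rfl

end AbSub

end Cfsg.Agent.Lib.SLFpf
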