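import Cfsg.Agent.Lib.SLFpf.MatExt2

/-!
A quadratic map between modules of `SL₂(K)` (`|K| ≥ 4`) in which all elements of trace one have no
fixed points is additive.
-/

set_option autoImplicit false
set_option linter.unusedSectionVars false
set_option linter.unusedSimpArgs false
set_option linter.unusedVariables false

open scoped MatrixGroups
open Matrix

namespace Cfsg.Agent.Lib.SLFpf.BVanish

open Cfsg.Agent.Lib.SLFpf.Tv Cfsg.Agent.Lib.SLFpf.MatExt Cfsg.Agent.Lib.SLFpf.MatExt2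

variable {K : Type*} [Field K] [CharP K 2]

/-- An element of `SL₂(K)` from its entries. -/
def slMk (p r s t : K) (h : p * t + r * s = 1) : SL(2, K) :=
  ⟨!![p, r; s, t], by
    have h2 : (2 : K) = 0 := two_K
    simp only [Matrix.det_fin_two_of]
    grind⟩

@[simp] lemma slMk_00 (p r s t : K) (h : p * t + r * s = 1) : (slMk p r s t h).1 0 0 = p := rfl
@[simp] lemma slMk_01 (p r s t : K) (h : p * t + r * s = 1) : (slMk p r s t h).1 0 1 = r := rfl
@[simp] lemma slMk_10 (p r s t : K) (h : p * t + r * s = 1) : (slMk p r s t h).1 1 0 = s := rfl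
@[simp] lemma slMk_11 (p r s t : K) (h : p * t + r * s = 1) : (slMk p r s t h).1 1 1 = t := rfl

/-- Matrix units. -/
def m12 : Matrix (Fin 2) (Fin 2) K := !![0, 1; 0, 0]
/-- Matrix units. -/
def m21 : Matrix (Fin 2) (Fin 2) K := !![0, 0; 1, 0]
/-- Matrix units. -/
def m22 : Matrix (Fin 2) (Fin 2) K := !![0, 0; 0, 1]

/-- The matrix unit `e₁₂` is a sum of four elements of trace one. -/
lemma m12_sum (d : K) (hd : d ≠ 0) (hd1 : d ≠ 1) :
    ∃ X₁ X₂ X₃ X₄ : SL(2, K), X₁.1 0 0 + X₁.1 1 1 = 1 ∧ X₂.1 0 0 + X₂.1 1 1 = 1 ∧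
      X₃.1 0 0 + X₃.1 1 1 = 1 ∧ X₄.1 0 0 + X₄.1 1 1 = 1 ∧
      X₁.1 + X₂.1 + X₃.1 + X₄.1 = m12 := by
  have h2 : (2 : K) = 0 := two_K
  have hn : d + 1 ≠ 0 := by
    intro h; apply hd1; grind
  have hi : (d + 1) * (d + 1)⁻¹ = 1 := mul_inv_cancel₀ hn
  have hj : d * d⁻¹ = 1 := mul_inv_cancel₀ hd
  set i := (d + 1)⁻¹
  set j := d⁻¹
  refine ⟨slMk 0 i (d + 1) 1 (by grind), slMk 0 j d 1 (by grind),
    slMk d ((1 + d + d * d) * i) (d + 1) (1 + d) (by grind),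
    slMk d ((1 + d + d * d) * j) d (1 + d) (by grind), by simp, by simp, ?_, ?_, ?_⟩
  · simp only [slMk_00, slMk_11]; grind
  · simp only [slMk_00, slMk_11]; grind
  · ext a b
    fin_cases a <;> fin_cases b
    · change (0 : K) + 0 + d + d = 0
      grind
    · change i + j + (1 + d + d * d) * i + (1 + d + d * d) * j = 1
      grind
    · change (d + 1) + d + (d + 1) + d = 0
      grind
    · change (1 : K) + 1 + (1 + d) + (1 + d) = 0
      grind

/-- The matrix unit `e₂₁` is a sum of four elements of trace one. -/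
lemma m21_sum (d : K) (hd : d ≠ 0) (hd1 : d ≠ 1) :
    ∃ X₁ X₂ X₃ X₄ : SL(2, K), X₁.1 0 0 + X₁.1 1 1 = 1 ∧ X₂.1 0 0 + X₂.1 1 1 = 1 ∧
      X₃.1 0 0 + X₃.1 1 1 = 1 ∧ X₄.1 0 0 + X₄.1 1 1 = 1 ∧
      X₁.1 + X₂.1 + X₃.1 + X₄.1 = m21 := by
  have h2 : (2 : K) = 0 := two_K
  have hn : d + 1 ≠ 0 := by
    intro h; apply hd1; grind
  have hi : (d + 1) * (d + 1)⁻¹ = 1 := mul_inv_cancel₀ hn
  have hj : d * d⁻¹ = 1 := mul_inv_cancel₀ hd
  set i := (d + 1)⁻¹
  set j := d⁻¹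
  refine ⟨slMk 0 (d + 1) i 1 (by grind), slMk 0 d j 1 (by grind),
    slMk d (d + 1) ((1 + d + d * d) * i) (1 + d) (by grind),
    slMk d d ((1 + d + d * d) * j) (1 + d) (by grind), by simp, by simp, ?_, ?_, ?_⟩
  · simp only [slMk_00, slMk_11]; grind
  · simp only [slMk_00, slMk_11]; grind
  · ext a b
    fin_cases a <;> fin_cases b
    · change (0 : K) + 0 + d + d = 0
      grind
    · change (d + 1) + d + (d + 1) + d = 0
      grind
    · change i + j + (1 + d + d * d) * i + (1 + d + d * d) * j = 1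
      grind
    · change (1 : K) + 1 + (1 + d) + (1 + d) = 0
      grind

section endo
variable {W : Type*} [AddCommGroup W]

lemma end_add (f g : AddMonoid.End W) (w : W) : (f + g) w = f w + g w := rfl
lemma end_mul (f g : AddMonoid.End W) (w : W) : (f * g) w = f (g w) := rfl
lemma end_one (w : W) : (1 : AddMonoid.End W) w = w := rfl
lemma end_zero (w : W) : (0 : AddMonoid.End W) w = 0 := rfl

end endo

variable [PerfectRing K 2]

/-- **The bilinear map vanishes.** -/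
theorem B_zero {W Z' : Type*} [AddCommGroup W] [AddCommGroup Z']
    (ρW : SL(2, K) →* AddMonoid.End W) (ρZ : SL(2, K) →* AddMonoid.End Z') (HW : Hyp ρW)
    (hZ2 : ∀ y : Z', y + y = 0)
    (relZ : ∀ z : SL(2, K), z.1 0 0 + z.1 1 1 = 1 → ∀ y, y + ρZ z y + ρZ z⁻¹ y = 0)
    (B : W → W → Z') (σ : W → Z')
    (hBadd : ∀ a b c, B (a + b) c = B a c + B b c) (hBsymm : ∀ a b, B a b = B b a)
    (hσ : ∀ a b, σ (a + b) = σ a + σ b + B a b)
    (hσeq : ∀ g a, σ (ρW g a) = ρZ g (σ a))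
    (d : K) (hd : d ≠ 0) (hd1 : d ≠ 1) : ∀ a b, B a b = 0 := by
  have h2 : (2 : K) = 0 := two_K
  have hW2 : ∀ w : W, w + w = 0 := by
    intro w
    have := congrArg (fun f : AddMonoid.End W => f w) HW.two
    simpa [two_mul, two_smul] using this
  have hBadd' : ∀ a b c, B a (b + c) = B a b + B a c := by
    intro a b c
    rw [hBsymm, hBadd, hBsymm b, hBsymm c]
  obtain ⟨Ψ, hΨ⟩ := exists_ringHom HW
  -- step 1
  have s1 : ∀ z : SL(2, K), z.1 0 0 + z.1 1 1 = 1 → ∀ w, B w (ρW z w) = 0 := by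
    intro z hz w
    have h1 := congrArg (fun f : AddMonoid.End W => f w) (HW.rel z hz)
    have h1' : w + ρW z w + ρW z⁻¹ w = 0 := h1
    have h3 : ρW z⁻¹ w = w + ρW z w := by
      have : ρW z⁻¹ w = (w + ρW z w + ρW z⁻¹ w) + (w + ρW z w) := by
        calc ρW z⁻¹ w = ρW z⁻¹ w + (w + w) + (ρW z w + ρW z w) := by
              rw [hW2, hW2]; simp
          _ = _ := by abel
      rw [this, h1', zero_add]
    have h4 := hσ w (ρW z w)
    rw [← h3, hσeq, hσeq] at h4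
    have h5 := relZ z hz (σ w)
    have h6 : ρZ z⁻¹ (σ w) = σ w + ρZ z (σ w) := by
      have : ρZ z⁻¹ (σ w) = (σ w + ρZ z (σ w) + ρZ z⁻¹ (σ w)) + (σ w + ρZ z (σ w)) := by
        calc ρZ z⁻¹ (σ w) = ρZ z⁻¹ (σ w) + (σ w + σ w) + (ρZ z (σ w) + ρZ z (σ w)) := by
              rw [hZ2, hZ2]; simp
          _ = _ := by abel
      rw [this, h5, zero_add]
    rw [h6] at h4
    exact (add_eq_left.1 h4.symm)
  -- step 2
  have s2 : ∀ z : SL(2, K), z.1 0 0 + z.1 1 1 = 1 → ∀ w w', B (ρW z w) w' = B w (ρW z w') := by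
    intro z hz w w'
    have h1 := s1 z hz (w + w')
    rw [map_add, hBadd, hBadd', hBadd', s1 z hz w, s1 z hz w', zero_add, add_zero] at h1
    have h3 : B w (ρW z w') = B w' (ρW z w) := by
      have : B w (ρW z w') = (B w (ρW z w') + B w' (ρW z w)) + B w' (ρW z w) := by
        rw [add_assoc, hZ2, add_zero]
      rw [this, h1, zero_add]
    rw [h3, hBsymm]
  -- step 3
  have hadj : ∀ (X₁ X₂ X₃ X₄ : SL(2, K)), X₁.1 0 0 + X₁.1 1 1 = 1 → X₂.1 0 0 + X₂.1 1 1 = 1 →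
      X₃.1 0 0 + X₃.1 1 1 = 1 → X₄.1 0 0 + X₄.1 1 1 = 1 → ∀ w w',
      B (Ψ (X₁.1 + X₂.1 + X₃.1 + X₄.1) w) w' = B w (Ψ (X₁.1 + X₂.1 + X₃.1 + X₄.1) w') := by
    intro X₁ X₂ X₃ X₄ h₁ h₃ h₄ h₅ w w'
    simp only [map_add, hΨ, end_add]
    simp only [hBadd, hBadd', s2 _ h₁, s2 _ h₃, s2 _ h₄, s2 _ h₅]
  obtain ⟨X₁, X₂, X₃, X₄, h₁, h₃, h₄, h₅, hsum⟩ := m12_sum d hd hd1
  obtain ⟨Y₁, Y₂, Y₃, Y₄, k₁, k₃, k₄, k₅, hsum'⟩ := m21_sum d hd hd1
  have a12 : ∀ w w', B (Ψ m12 w) w' = B w (Ψ m12 w') := by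
    rw [← hsum]; exact hadj _ _ _ _ h₁ h₃ h₄ h₅
  have a21 : ∀ w w', B (Ψ m21 w) w' = B w (Ψ m21 w') := by
    rw [← hsum']; exact hadj _ _ _ _ k₁ k₃ k₄ k₅
  -- the matrix `z₀` of trace one
  have a22 : ∀ w w', B (Ψ m22 w) w' = B w (Ψ m22 w') := by
    intro w w'
    set z₀ : SL(2, K) := slMk 0 1 1 1 (by grind) with hz₀
    have hz₀t : z₀.1 0 0 + z₀.1 1 1 = 1 := by simp [hz₀]
    have e : m22 = z₀.1 + m12 + m21 := by
      ext a b
      fin_cases a <;> fin_cases b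
      · change (0 : K) = 0 + 0 + 0
        simp
      · change (0 : K) = 1 + 1 + 0
        grind
      · change (0 : K) = 1 + 0 + 1
        grind
      · change (1 : K) = 1 + 0 + 0
        simp
    rw [e, map_add, map_add, hΨ]
    simp only [end_add, hBadd, hBadd', s2 _ hz₀t, a12, a21]
  have hm : m12 * m21 + m21 * m12 = (1 : Matrix (Fin 2) (Fin 2) K) := by
    ext a b
    fin_cases a <;> fin_cases b <;>
      simp [m12, m21, Matrix.mul_apply, Fin.sum_univ_two, Matrix.add_apply, Matrix.one_apply]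
  have hm2 : m21 * m12 = (m22 : Matrix (Fin 2) (Fin 2) K) := by
    ext a b
    fin_cases a <;> fin_cases b <;>
      simp [m12, m21, m22, Matrix.mul_apply, Fin.sum_univ_two]
  intro w w'
  -- `Ψ (e₂₁ e₁₂)` is self-adjoint
  have k1 : B (Ψ m21 (Ψ m12 w)) w' = B w (Ψ m21 (Ψ m12 w')) := by
    have := a22 w w'
    rw [← hm2, map_mul] at this
    exact this
  have k2 : B (Ψ m21 (Ψ m12 w)) w' = B w (Ψ m12 (Ψ m21 w')) := by
    rw [a21, a12]
  have k3 : B w (Ψ m21 (Ψ m12 w')) = B w (Ψ m12 (Ψ m21 w')) := by rw [← k1, k2]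
  have k4 : w' = Ψ m12 (Ψ m21 w') + Ψ m21 (Ψ m12 w') := by
    have h := congrArg (fun f : AddMonoid.End W => f w') (congrArg Ψ hm)
    simp only [map_add, map_mul, map_one, end_add, end_mul,
      end_one] at h
    exact h.symm
  rw [k4, hBadd', k3, hZ2]

end Cfsg.Agent.Lib.SLFpf.BVanish
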