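import Cfsg.Agent.Lib.SLFpf.MatExt2

/-!
If `4 = 0` in a ring `A` and `SL₂(K)` (`|K| ≥ 4`) maps to `A` so that `1 + z + z⁻¹ = 0` for all
elements of trace one, then `2 = 0` in `A`.
-/

set_option autoImplicit false
set_option linter.unusedSectionVars false
set_option linter.unusedSimpArgs false
set_option linter.unusedVariables false

open scoped MatrixGroups
open Matrix

namespace Cfsg.Agent.Lib.SLFpf.MatTwo

open Cfsg.Agent.Lib.SLFpf.Tv Cfsg.Agent.Lib.SLFpf.MatExt Cfsg.Agent.Lib.SLFpf.MatExt2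

variable {K : Type*} [Field K] [CharP K 2] [PerfectRing K 2] {A : Type*} [Ring A]

omit [CharP K 2] [PerfectRing K 2] in
lemma two_comm (y : A) : y * 2 = 2 * y := by rw [mul_two, two_mul]

/-- Congruence modulo `2A`. -/
def con₁ (A : Type*) [Ring A] : RingCon A where
  r x y := ∃ t, x - y = 2 * t
  iseqv := by
    refine ⟨fun x => ⟨0, by simp⟩, ?_, ?_⟩
    · rintro x y ⟨t, ht⟩
      exact ⟨-t, by rw [mul_neg, ← ht]; abel⟩
    · rintro x y z ⟨s, hs⟩ ⟨t, ht⟩
      exact ⟨s + t, by rw [mul_add, ← hs, ← ht]; abel⟩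
  add' := by
    rintro x y u v ⟨s, hs⟩ ⟨t, ht⟩
    exact ⟨s + t, by rw [mul_add, ← hs, ← ht]; abel⟩
  mul' := by
    rintro x y u v ⟨s, hs⟩ ⟨t, ht⟩
    refine ⟨s * u + y * t, ?_⟩
    have : x * u - y * v = (x - y) * u + y * (u - v) := by noncomm_ring
    rw [this, hs, ht, mul_add, mul_assoc 2 s u, ← mul_assoc y 2 t, two_comm, mul_assoc]

/-- Congruence modulo the annihilator of `2`. -/
def con₂ (A : Type*) [Ring A] : RingCon A where
  r x y := 2 * (x - y) = 0
  iseqv := by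
    refine ⟨fun x => by simp, ?_, ?_⟩
    · intro x y h
      have : y - x = -(x - y) := by abel
      rw [this, mul_neg, h, neg_zero]
    · intro x y z h1 h2
      have : x - z = (x - y) + (y - z) := by abel
      rw [this, mul_add, h1, h2, add_zero]
  add' := by
    intro x y u v h1 h2
    have : x + u - (y + v) = (x - y) + (u - v) := by abel
    rw [this, mul_add, h1, h2, add_zero]
  mul' := by
    intro x y u v h1 h2
    have : x * u - y * v = (x - y) * u + y * (u - v) := by noncomm_ring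
    rw [this, mul_add, ← mul_assoc, h1, zero_mul, ← mul_assoc, ← two_comm, mul_assoc, h2, mul_zero,
      add_zero]

lemma con₁_iff (x y : A) : ((con₁ A).mk' x = (con₁ A).mk' y) ↔ ∃ t, x - y = 2 * t :=
  (con₁ A).eq

lemma con₂_iff (x y : A) : ((con₂ A).mk' x = (con₂ A).mk' y) ↔ 2 * (x - y) = 0 :=
  (con₂ A).eq

/-- The reduction of a representation satisfying the trace relation. -/
lemma hyp₁ (ρ : SL(2, K) →* A)
    (rel : ∀ z : SL(2, K), z.1 0 0 + z.1 1 1 = 1 → 1 + ρ z + ρ z⁻¹ = 0) :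
    Hyp ((((con₁ A).mk' : A →+* (con₁ A).Quotient) : A →* (con₁ A).Quotient).comp ρ) where
  two := by
    have : (con₁ A).mk' (2 : A) = (con₁ A).mk' 0 := (con₁_iff _ _).2 ⟨1, by simp⟩
    rw [← map_ofNat ((con₁ A).mk') 2, this, map_zero]
  rel z hz := by
    have h := congrArg (con₁ A).mk' (rel z hz)
    simpa using h

lemma hyp₂ (h4 : (4 : A) = 0) (ρ : SL(2, K) →* A)
    (rel : ∀ z : SL(2, K), z.1 0 0 + z.1 1 1 = 1 → 1 + ρ z + ρ z⁻¹ = 0) :
    Hyp ((((con₂ A).mk' : A →+* (con₂ A).Quotient) : A →* (con₂ A).Quotient).comp ρ) where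
  two := by
    have : (con₂ A).mk' (2 : A) = (con₂ A).mk' 0 := (con₂_iff _ _).2 (by
      rw [sub_zero]; norm_num; exact h4)
    rw [← map_ofNat ((con₂ A).mk') 2, this, map_zero]
  rel z hz := by
    have h := congrArg (con₂ A).mk' (rel z hz)
    simpa using h

/-- Averaging over the scalars. -/
lemma avg {B : Type*} [Ring B] [Fintype K] (hB : (2 : B) = 0) (C : K →+* B) (ξ : B)
    (b d : K) (hb : b ≠ 0) (h : C d + (ξ * C b - C b * ξ) = 0) : C d = 0 := by
  classical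
  have hdbl : ∀ x : B, x + x = 0 := by
    intro x
    have : x + x = (2 : B) * x := by noncomm_ring
    rw [this, hB, zero_mul]
  set bu : Kˣ := Units.mk0 b hb with hbu
  -- the sum
  have h1 : ∑ l : Kˣ, C (l : K) * (C d + (ξ * C b - C b * ξ)) * C ((l⁻¹ : Kˣ) : K) = 0 := by
    rw [h]; simp
  have hterm : ∀ l : Kˣ, C (l : K) * (C d + (ξ * C b - C b * ξ)) * C ((l⁻¹ : Kˣ) : K) =
      C d + (C (l : K) * ξ * C (((l⁻¹ : Kˣ) : K) * b) - C ((l : K) * b) * ξ * C ((l⁻¹ : Kˣ) : K)) := by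
    intro l
    have e1 : C (l : K) * C d * C ((l⁻¹ : Kˣ) : K) = C d := by
      rw [← map_mul, ← map_mul]
      congr 1
      rw [mul_comm (l : K), mul_assoc, Units.mul_inv, mul_one]
    rw [mul_add, add_mul, e1, mul_sub, sub_mul, map_mul C ((l⁻¹ : Kˣ) : K) b, map_mul C (l : K) b]
    have e2 : C b * C ((l⁻¹ : Kˣ) : K) = C ((l⁻¹ : Kˣ) : K) * C b := by
      rw [← map_mul, ← map_mul, mul_comm]
    congr 2
    · calc C (l : K) * (ξ * C b) * C ((l⁻¹ : Kˣ) : K)
          = C (l : K) * ξ * (C b * C ((l⁻¹ : Kˣ) : K)) := by noncomm_ring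
        _ = _ := by rw [e2]
    · noncomm_ring
  simp only [hterm] at h1
  rw [Finset.sum_add_distrib, Finset.sum_sub_distrib, Finset.sum_const] at h1
  have h2 : ∑ l : Kˣ, C ((l : K) * b) * ξ * C ((l⁻¹ : Kˣ) : K) =
      ∑ l : Kˣ, C (l : K) * ξ * C (((l⁻¹ : Kˣ) : K) * b) := by
    apply Fintype.sum_equiv (Equiv.mulRight bu)
    intro l
    have e3 : ((l * bu : Kˣ) : K) = (l : K) * b := rfl
    have e4 : (((l * bu)⁻¹ : Kˣ) : K) * b = ((l⁻¹ : Kˣ) : K) := by
      have hbb : ((bu⁻¹ : Kˣ) : K) * b = 1 := bu.inv_mul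
      rw [_root_.mul_inv_rev, Units.val_mul, mul_comm (bu⁻¹ : Kˣ).val, mul_assoc, hbb, mul_one]
    simp only [Equiv.coe_mulRight]
    rw [e3, e4]
  rw [h2, sub_self, add_zero] at h1
  -- the cardinality is odd
  have hodd : Odd (Fintype.card Kˣ) := by
    obtain ⟨n, hp, hn⟩ := FiniteField.card K 2
    rw [Fintype.card_units, hn]
    have hn0 : (n : ℕ) ≠ 0 := n.ne_zero
    have : 2 ∣ 2 ^ (n : ℕ) := dvd_pow_self 2 hn0
    obtain ⟨m, hm⟩ := this
    have hpos : 0 < 2 ^ (n : ℕ) := by positivity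
    exact ⟨m - 1, by omega⟩
  obtain ⟨k, hk⟩ := hodd
  rw [Finset.card_univ, hk, add_nsmul, one_nsmul, mul_comm, mul_nsmul, two_nsmul, hdbl,
    zero_add] at h1
  exact h1

/-- Matrix computation: the scalar `X`. -/
lemma mat_X (a : K) :
    ((tv a 0 : SL(2, K)).1 * (tv 0 1 : SL(2, K)).1 + (tv 0 1 : SL(2, K)).1 * (tv a 0 : SL(2, K)).1 :
      Matrix (Fin 2) (Fin 2) K) = Matrix.scalar (Fin 2) (a * a) := by
  have h2 : (2 : K) = 0 := two_K
  ext i j
  fin_cases i <;> fin_cases j <;>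
    simp [Matrix.mul_apply, Fin.sum_univ_two, Matrix.add_apply, Matrix.one_apply] <;> grind

/-- Matrix computation: the difference `T' - 1 - X (T - 1)` vanishes. -/
lemma mat_xi (a : K) :
    ((tv a 0 : SL(2, K)).1 - 1 - ((tv a 0 : SL(2, K)).1 * (tv 0 1 : SL(2, K)).1 +
      (tv 0 1 : SL(2, K)).1 * (tv a 0 : SL(2, K)).1) * ((tv 1 0 : SL(2, K)).1 - 1) :
      Matrix (Fin 2) (Fin 2) K) = 0 := by
  have h2 : (2 : K) = 0 := two_K
  rw [mat_X]
  ext i j
  fin_cases i <;> fin_cases j <;>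
    simp [Matrix.mul_apply, Fin.sum_univ_two, Matrix.add_apply, Matrix.one_apply]

/-- Matrix computation: the element `W`. -/
lemma mat_W (a : K) :
    ((tv a 0 : SL(2, K)).1 * ((tv 1 0 : SL(2, K)).1 * (tv 0 1 : SL(2, K)).1) +
      (tv 1 0 : SL(2, K)).1 * (tv 0 1 : SL(2, K)).1 * (tv a 0 : SL(2, K)).1 + (tv a 0 : SL(2, K)).1 :
      Matrix (Fin 2) (Fin 2) K) = Matrix.scalar (Fin 2) (1 + a * a) := by
  have h2 : (2 : K) = 0 := two_K
  ext i j
  fin_cases i <;> fin_cases j <;>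
    simp [Matrix.mul_apply, Fin.sum_univ_two, Matrix.add_apply, Matrix.one_apply] <;> grind

/-- **Theorem.** -/
theorem two_eq_zero [Fintype K] (h4 : (4 : A) = 0) (ρ : SL(2, K) →* A)
    (rel : ∀ z : SL(2, K), z.1 0 0 + z.1 1 1 = 1 → 1 + ρ z + ρ z⁻¹ = 0)
    (a : K) (ha : a ≠ 0) (ha1 : a ≠ 1) : (2 : A) = 0 := by
  have h2K : (2 : K) = 0 := two_K
  set π₁ : A →+* (con₁ A).Quotient := (con₁ A).mk' with hπ₁
  set π₂ : A →+* (con₂ A).Quotient := (con₂ A).mk' with hπ₂
  have H₁ := hyp₁ ρ rel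
  have H₂ := hyp₂ h4 ρ rel
  obtain ⟨Ψ₁, hΨ₁⟩ := exists_ringHom H₁
  obtain ⟨Ψ₂, hΨ₂⟩ := exists_ringHom H₂
  have hΨ₁' : ∀ g : SL(2, K), π₁ (ρ g) = Ψ₁ g.1 := fun g => (hΨ₁ g).symm
  have hΨ₂' : ∀ g : SL(2, K), π₂ (ρ g) = Ψ₂ g.1 := fun g => (hΨ₂ g).symm
  set T := ρ (tv 1 0) with hT
  set T' := ρ (tv a 0) with hT'
  set S := ρ (tv 0 1) with hS
  set X := T' * S + S * T' with hX
  -- the element `ξ`
  have hξ : ∃ ξ, T' - 1 - X * (T - 1) = 2 * ξ := by
    have : π₁ (T' - 1 - X * (T - 1)) = π₁ 0 := by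
      rw [hX, map_sub, map_sub, map_mul, map_add, map_mul, map_mul, map_sub, map_one, hT', hS, hT,
        hΨ₁', hΨ₁', hΨ₁']
      have := congrArg Ψ₁ (mat_xi (K := K) a)
      simp only [map_sub, map_one, map_mul, map_add, map_zero] at this
      rw [map_zero]
      exact this
    obtain ⟨ξ, hξ⟩ := (con₁_iff _ _).1 this
    exact ⟨ξ, by rw [← hξ, sub_zero]⟩
  obtain ⟨ξ, hξ⟩ := hξ
  -- the relations in `A`
  have hTT : T * T = 1 := t_sq 1 0
  have hT'T' : T' * T' = 1 := t_sq a 0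
  have hSS : S * S = 1 := t_sq 0 1
  have hcomm : T * T' = T' * T := by
    rw [hT, hT', ← map_mul, ← map_mul, tv_comm_zero']
  have hrel : S * T = -1 - T * S := by
    have h := rel (tv 1 0 * tv 0 1) (trace_tv_mul 1 0 0 1 (by ring))
    rw [_root_.mul_inv_rev, tv_inv, tv_inv, map_mul, map_mul] at h
    rw [← hT, ← hS] at h
    have : S * T = (1 + T * S + S * T) + (-1 - T * S) := by abel
    rw [this, h, zero_add]
  have hT'X : T' * X = X * T' := by
    rw [hX]
    calc T' * (T' * S + S * T') = (T' * T') * S + T' * S * T' := by noncomm_ring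
      _ = T' * S * T' + S * (T' * T') := by rw [hT'T']; noncomm_ring
      _ = _ := by noncomm_ring
  set W := T' * (T * S) + T * S * T' + T' with hW
  have hTX : T * X - X * T = 2 * W := by
    rw [hX, hW]
    have e1 : T * (T' * S + S * T') - (T' * S + S * T') * T =
        T' * (T * S) + T * S * T' - T' * (S * T) - (S * T) * T' := by
      calc T * (T' * S + S * T') - (T' * S + S * T') * T
          = (T * T') * S + T * S * T' - T' * (S * T) - S * (T' * T) := by noncomm_ring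
        _ = _ := by
            have a1 : (T * T') * S = T' * (T * S) := by rw [hcomm, mul_assoc]
            have a2 : S * (T' * T) = (S * T) * T' := by rw [← hcomm, mul_assoc]
            rw [a1, a2]
    rw [e1, hrel]
    noncomm_ring
  have hmain : 2 * (X * W + (ξ * X - X * ξ)) = 0 := by
    have e0 : T' = 1 + X * (T - 1) + 2 * ξ := by rw [← hξ]; noncomm_ring
    have e1 : T' * X - X * T' = X * (T * X - X * T) + 2 * (ξ * X - X * ξ) := by
      rw [e0]
      have hX2 : X * (2 * ξ) = 2 * (X * ξ) := by rw [← mul_assoc, two_comm, mul_assoc]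
      calc (1 + X * (T - 1) + 2 * ξ) * X - X * (1 + X * (T - 1) + 2 * ξ)
          = X * (T * X - X * T) + 2 * ξ * X - X * (2 * ξ) := by noncomm_ring
        _ = _ := by rw [hX2]; noncomm_ring
    have e2 : T' * X - X * T' = 0 := by rw [hT'X, sub_self]
    rw [e2, hTX] at e1
    have hX2 : X * (2 * W) = 2 * (X * W) := by rw [← mul_assoc, two_comm, mul_assoc]
    rw [hX2, ← mul_add] at e1
    exact e1.symm
  -- pass to the quotient
  have hq : π₂ (X * W + (ξ * X - X * ξ)) = π₂ 0 :=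
    (con₂_iff _ _).2 (by rw [sub_zero]; exact hmain)
  set C : K →+* (con₂ A).Quotient := Ψ₂.comp (Matrix.scalar (Fin 2)) with hC
  have hπX : π₂ X = C (a * a) := by
    rw [hX, map_add, map_mul, map_mul, hT', hS, hΨ₂', hΨ₂', hC, RingHom.comp_apply, ← mat_X,
      map_add, map_mul, map_mul]
  have hπW : π₂ W = C (1 + a * a) := by
    rw [hW, map_add, map_add, map_mul, map_mul, map_mul, map_mul, hT', hS, hT, hΨ₂', hΨ₂', hΨ₂', hC,
      RingHom.comp_apply, ← mat_W]
    simp only [map_add, map_mul]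
  rw [map_add, map_mul, map_sub, map_mul, map_mul, hπX, hπW, map_zero, ← map_mul] at hq
  have hb : a * a ≠ 0 := mul_ne_zero ha ha
  have hd := avg H₂.two C (π₂ ξ) (a * a) (a * a * (1 + a * a)) hb hq
  have hd0 : a * a * (1 + a * a) ≠ 0 := by
    apply mul_ne_zero hb
    intro h
    have : (a + 1) * (a + 1) = 0 := by grind
    have h3 : a + 1 = 0 := by simpa using this
    apply ha1
    grind
  have h1 : C 1 = 0 := by
    have e : (1 : K) = (a * a * (1 + a * a)) * (a * a * (1 + a * a))⁻¹ := (mul_inv_cancel₀ hd0).symm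
    rw [e, map_mul, hd, zero_mul]
  rw [map_one] at h1
  have h3 : π₂ 1 = π₂ 0 := by rw [map_one, map_zero]; exact h1
  have h4' := (con₂_iff _ _).1 h3
  rwa [sub_zero, mul_one] at h4'

end Cfsg.Agent.Lib.SLFpf.MatTwo
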