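import Cfsg.Agent.Lib.SLFpf.SecRep
import Cfsg.Agent.Lib.SLFpf.MatTwo
import Cfsg.Agent.Lib.SLFpf.AbSub

/-!
A normal `2`-subgroup `Q` with quotient `SL₂(K)`, `|K| ≥ 4`, on which an element of order three acts
without fixed points is elementary abelian.
-/

set_option autoImplicit false
set_option linter.unusedSectionVars false
set_option linter.unusedSimpArgs false
set_option linter.unusedVariables false

open scoped MatrixGroups
open Matrix

namespace Cfsg.Agent.Lib.SLFpf.Core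

open Cfsg.Agent.Lib.SLFpf.Tv Cfsg.Agent.Lib.SLFpf.MatExt Cfsg.Agent.Lib.SLFpf.MatExt2
open Cfsg.Agent.Lib.SLFpf.BVanish Cfsg.Agent.Lib.SLFpf.SecRep Cfsg.Agent.Lib.SLFpf.MatTwo
open Cfsg.Agent.Lib.SLFpf

variable {K : Type*} [Field K] [CharP K 2] [PerfectRing K 2]
variable {G : Type*} [Group G] {Q : Subgroup G} {π : G →* SL(2, K)} {x : G}

/-- The induced homomorphism on a quotient. -/
def piBar (π : G →* SL(2, K)) (Q R : Subgroup G) [R.Normal] (hRQ : R ≤ Q)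
    (h : ∀ g, π g = 1 ↔ g ∈ Q) : G ⧸ R →* SL(2, K) :=
  QuotientGroup.lift R π (fun r hr => (h r).2 (hRQ hr))

lemma Setup.quot [Finite G] (S : Setup Q π x) (R : Subgroup G) [hR : R.Normal] (hRQ : R ≤ Q) :
    Setup (Q.map (QuotientGroup.mk' R)) (piBar π Q R hRQ S.ker_iff) (QuotientGroup.mk x) where
  surj := by
    intro z
    obtain ⟨g, rfl⟩ := S.surj z
    exact ⟨QuotientGroup.mk g, rfl⟩
  ker_iff := by
    intro g
    obtain ⟨g, rfl⟩ := QuotientGroup.mk_surjective g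
    constructor
    · intro h
      exact ⟨g, (S.ker_iff g).1 h, rfl⟩
    · rintro ⟨q, hq, e⟩
      have : π q = π g := by
        have e' : (QuotientGroup.mk q : G ⧸ R) = QuotientGroup.mk g := e
        have := congrArg (piBar π Q R hRQ S.ker_iff) e'
        exact this
      change π g = 1
      rw [← this]
      exact (S.ker_iff q).2 hq
  x3 := by
    rw [← QuotientGroup.mk_pow, S.x3]; rfl
  xne := S.xne
  fix := by
    rintro _ ⟨q, hq, rfl⟩ h
    -- the key lemma: commuting with `x` modulo `R`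
    change (QuotientGroup.mk x : G ⧸ R) * QuotientGroup.mk q * (QuotientGroup.mk x)⁻¹ =
      QuotientGroup.mk q at h
    have h1 : q⁻¹ * (x * q * x⁻¹) ∈ R := by
      rw [← QuotientGroup.eq]
      simpa using h.symm
    -- the map on `R`
    have hxR : ∀ r ∈ R, r⁻¹ * (x * r * x⁻¹) ∈ R := by
      intro r hr
      exact R.mul_mem (R.inv_mem hr) (hR.conj_mem r hr x)
    let f : R → R := fun r => ⟨r.1⁻¹ * (x * r.1 * x⁻¹), hxR r.1 r.2⟩
    have hinj : ∀ a ∈ Q, ∀ b ∈ Q, a⁻¹ * (x * a * x⁻¹) = b⁻¹ * (x * b * x⁻¹) → a = b := by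
      intro a ha b hb e
      have h3 : x * (b * a⁻¹) * x⁻¹ = b * a⁻¹ := by
        have e2 : x * a * x⁻¹ = a * (b⁻¹ * (x * b * x⁻¹)) := by
          rw [← e]; group
        calc x * (b * a⁻¹) * x⁻¹ = (x * b * x⁻¹) * (x * a * x⁻¹)⁻¹ := by group
          _ = (x * b * x⁻¹) * (a * (b⁻¹ * (x * b * x⁻¹)))⁻¹ := by rw [e2]
          _ = b * a⁻¹ := by group
      have h4 := S.fix _ (Q.mul_mem hb (Q.inv_mem ha)) h3
      have : b = a := by
        have := mul_inv_eq_one.1 h4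
        exact this
      exact this.symm
    have hfinj : Function.Injective f := by
      intro a b e
      have e' : a.1⁻¹ * (x * a.1 * x⁻¹) = b.1⁻¹ * (x * b.1 * x⁻¹) := congrArg Subtype.val e
      exact Subtype.ext (hinj _ (hRQ a.2) _ (hRQ b.2) e')
    have hfsurj : Function.Surjective f := Finite.surjective_of_injective hfinj
    obtain ⟨r, hr⟩ := hfsurj ⟨_, h1⟩
    have e3 : r.1⁻¹ * (x * r.1 * x⁻¹) = q⁻¹ * (x * q * x⁻¹) := congrArg Subtype.val hr
    have : r.1 = q := hinj _ (hRQ r.2) _ hq e3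
    rw [QuotientGroup.mk'_apply, QuotientGroup.eq_one_iff, ← this]
    exact r.2

lemma Setup.normal (S : Setup Q π x) : Q.Normal := by
  constructor
  intro q hq g
  rw [← S.ker_iff] at hq ⊢
  rw [map_mul, map_mul, hq, mul_one, map_inv, mul_inv_cancel]

omit [Field K] [CharP K 2] [PerfectRing K 2] in
lemma comm_left (a b z : G) (h : z * b = b * z) : (a * z) * b * (a * z)⁻¹ * b⁻¹ = a * b * a⁻¹ * b⁻¹ := by
  have : z * b * z⁻¹ = b := by rw [h]; group
  calc (a * z) * b * (a * z)⁻¹ * b⁻¹ = a * (z * b * z⁻¹) * a⁻¹ * b⁻¹ := by group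
    _ = _ := by rw [this]

omit [Field K] [CharP K 2] [PerfectRing K 2] in
lemma comm_right (a b z : G) (h : z * a = a * z) : a * (b * z) * a⁻¹ * (b * z)⁻¹ = a * b * a⁻¹ * b⁻¹ := by
  have : z * a⁻¹ * z⁻¹ = a⁻¹ := by
    have h3 : z * a⁻¹ = a⁻¹ * z := by
      rw [eq_inv_mul_iff_mul_eq, ← mul_assoc, ← h, mul_assoc, mul_inv_cancel, mul_one]
    rw [h3]; group
  calc a * (b * z) * a⁻¹ * (b * z)⁻¹ = a * b * (z * a⁻¹ * z⁻¹) * b⁻¹ := by group
    _ = _ := by rw [this]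

omit [Field K] [CharP K 2] [PerfectRing K 2] in
lemma sq_z (a z : G) (h : z * a = a * z) (hz : z * z = 1) : (a * z) * (a * z) = a * a := by
  calc (a * z) * (a * z) = a * (z * a) * z := by group
    _ = a * a * (z * z) := by rw [h]; group
    _ = a * a := by rw [hz, mul_one]

omit [Field K] [CharP K 2] [PerfectRing K 2] in
lemma sq_mul (a b c : G) (hab : a * b * a⁻¹ * b⁻¹ = c) (hca : c * a = a * c) (hcb : c * b = b * c)
    (hcc : c * c = 1) : (a * b) * (a * b) = a * a * (b * b) * c := by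
  have h1 : a * b = c * (b * a) := by
    rw [← hab]; group
  have h2 : b * a = c * (a * b) := by
    rw [h1, ← mul_assoc, ← mul_assoc, hcc, one_mul]
  calc (a * b) * (a * b) = a * (b * a) * b := by group
    _ = a * (c * (a * b)) * b := by rw [h2]
    _ = (a * c) * a * b * b := by group
    _ = (c * a) * a * b * b := by rw [hca]
    _ = c * (a * a) * (b * b) := by group
    _ = a * a * (b * b) * c := by
        have h3 : c * (a * a) = (a * a) * c := by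
          rw [← mul_assoc, hca, mul_assoc, hca, mul_assoc]
        have h4 : c * (b * b) = (b * b) * c := by
          rw [← mul_assoc, hcb, mul_assoc, hcb, mul_assoc]
        rw [h3, mul_assoc (a * a) c, h4, mul_assoc (a * a) (b * b) c]

/-- **The core.** -/
theorem core [Finite G] [Fintype K] (S : Setup Q π x) (d : K) (hd : d ≠ 0) (hd1 : d ≠ 1)
    (Z : Subgroup G) [hZn : Z.Normal] (hZQ : Z ≤ Q) (hZc : ∀ z ∈ Z, ∀ q ∈ Q, z * q = q * z)
    (hZ2 : ∀ z ∈ Z, z * z = 1) (hmc : ∀ a ∈ Q, ∀ b ∈ Q, a * b * a⁻¹ * b⁻¹ ∈ Z)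
    (hm2 : ∀ a ∈ Q, a * a ∈ Z) :
    (∀ a ∈ Q, ∀ b ∈ Q, a * b = b * a) ∧ ∀ a ∈ Q, a * a = 1 := by
  have hQn : Q.Normal := Setup.normal S
  -- the quotient
  set mk := QuotientGroup.mk' Z with hmk
  set Qb := Q.map mk with hQb
  have hQbn : Qb.Normal := hQn.map mk (QuotientGroup.mk'_surjective Z)
  have Sb := Setup.quot S Z hZQ
  have hmkeq : ∀ a b : G, mk a = mk b → ∃ z ∈ Z, b = a * z := by
    intro a b h
    refine ⟨a⁻¹ * b, ?_, by group⟩
    exact QuotientGroup.eq.1 h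
  have hQbc : ∀ a ∈ Qb, ∀ b ∈ Qb, a * b = b * a := by
    rintro _ ⟨a, ha, rfl⟩ _ ⟨b, hb, rfl⟩
    rw [← map_mul, ← map_mul]
    apply QuotientGroup.eq.2
    have h6 := hZn.conj_mem _ (hmc b hb a ha) (b * a)⁻¹
    have e2 : (b * a)⁻¹ * (b * a * b⁻¹ * a⁻¹) * (b * a)⁻¹⁻¹ = (a * b)⁻¹ * (b * a) := by group
    rwa [e2] at h6
  have hQb2 : ∀ a ∈ Qb, a * a = 1 := by
    rintro _ ⟨a, ha, rfl⟩
    rw [← map_mul, hmk, QuotientGroup.mk'_apply, QuotientGroup.eq_one_iff]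
    exact hm2 a ha
  have hZcc : ∀ a ∈ Z, ∀ b ∈ Z, a * b = b * a := fun a ha b hb => hZc a ha b (hZQ hb)
  -- the two modules
  obtain ⟨ρW, hρW, hrelW⟩ := Setup.rep Sb (AbSub.act Qb hQbc)
    (by
      intro q hq
      ext a
      change q * a.val * q⁻¹ = a.val
      rw [hQbc q hq _ a.mem, mul_assoc, mul_inv_cancel, mul_one])
    (by
      intro m hm
      have h1 : (QuotientGroup.mk x : G ⧸ Z) * m.val * (QuotientGroup.mk x)⁻¹ = m.val :=
        congrArg AbSub.val hm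
      exact AbSub.ext (Sb.fix _ m.mem h1))
  obtain ⟨ρZ, hρZ, hrelZ⟩ := Setup.rep S (AbSub.act Z hZcc)
    (by
      intro q hq
      ext a
      change q * a.val * q⁻¹ = a.val
      rw [← hZc _ a.mem q hq, mul_assoc, mul_inv_cancel, mul_one])
    (by
      intro m hm
      have h1 : x * m.val * x⁻¹ = m.val := congrArg AbSub.val hm
      exact AbSub.ext (S.fix _ (hZQ m.mem) h1))
  have HW : Hyp ρW := by
    refine ⟨?_, hrelW⟩
    ext w
    have e : ((2 : AddMonoid.End (AbSub Qb hQbc)) w) = 2 • w := rfl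
    rw [e, AbSub.nsmul_val, pow_two, hQb2 _ w.mem]
    rfl
  have hZ'2 : ∀ y : AbSub Z hZcc, y + y = 0 := by
    intro y
    ext
    exact hZ2 _ y.mem
  have hrelZ' : ∀ z : SL(2, K), z.1 0 0 + z.1 1 1 = 1 → ∀ y, y + ρZ z y + ρZ z⁻¹ y = 0 := by
    intro z hz y
    exact congrArg (fun f : AddMonoid.End (AbSub Z hZcc) => f y) (hrelZ z hz)
  -- the lifts
  have hlift : ∀ w : AbSub Qb hQbc, ∃ a, a ∈ Q ∧ mk a = w.val := by
    intro w
    obtain ⟨a, ha, e⟩ := w.mem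
    exact ⟨a, ha, e⟩
  choose L hL hL' using hlift
  let σ : AbSub Qb hQbc → AbSub Z hZcc := fun w => ⟨L w * L w, hm2 _ (hL w)⟩
  let B : AbSub Qb hQbc → AbSub Qb hQbc → AbSub Z hZcc := fun w w' =>
    ⟨L w * L w' * (L w)⁻¹ * (L w')⁻¹, hmc _ (hL w) _ (hL w')⟩
  have σ_eq : ∀ (w : AbSub Qb hQbc) (a : G), a ∈ Q → mk a = w.val → (σ w).val = a * a := by
    intro w a ha e
    obtain ⟨z, hz, rfl⟩ := hmkeq (L w) a (by rw [hL', e])
    rw [sq_z _ _ (hZc z hz _ (hL w)) (hZ2 z hz)]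
  have B_eq : ∀ (w w' : AbSub Qb hQbc) (a b : G), a ∈ Q → b ∈ Q → mk a = w.val → mk b = w'.val →
      (B w w').val = a * b * a⁻¹ * b⁻¹ := by
    intro w w' a b ha hb e e'
    obtain ⟨z, hz, rfl⟩ := hmkeq (L w) a (by rw [hL', e])
    obtain ⟨z', hz', rfl⟩ := hmkeq (L w') b (by rw [hL', e'])
    rw [comm_left _ _ _ (hZc z hz _ hb), comm_right _ _ _ (hZc z' hz' _ (hL w))]
  have hBadd : ∀ a b c, B (a + b) c = B a c + B b c := by
    intro w₁ w₂ w'
    ext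
    have e1 : mk (L w₁ * L w₂) = (w₁ + w₂).val := by
      rw [map_mul, hL', hL']; rfl
    rw [B_eq _ _ _ _ (Q.mul_mem (hL w₁) (hL w₂)) (hL w') e1 (hL' w')]
    change _ = (L w₁ * L w' * (L w₁)⁻¹ * (L w')⁻¹) * (L w₂ * L w' * (L w₂)⁻¹ * (L w')⁻¹)
    set a₁ := L w₁
    set a₂ := L w₂
    set b := L w'
    have h₁ := hL w₁
    have h₂ := hL w₂
    have h₃ := hL w'
    have hc := hmc a₂ h₂ b h₃
    set c := a₂ * b * a₂⁻¹ * b⁻¹ with hcdef
    have hcc' := hmc a₁ h₁ b h₃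
    calc a₁ * a₂ * b * (a₁ * a₂)⁻¹ * b⁻¹ = (a₁ * c) * (b * a₁⁻¹ * b⁻¹) := by rw [hcdef]; group
      _ = (c * a₁) * (b * a₁⁻¹ * b⁻¹) := by rw [hZc c hc a₁ h₁]
      _ = c * (a₁ * b * a₁⁻¹ * b⁻¹) := by group
      _ = (a₁ * b * a₁⁻¹ * b⁻¹) * c := hZcc _ hc _ hcc'
  have hBsymm : ∀ a b, B a b = B b a := by
    intro w w'
    ext
    change L w * L w' * (L w)⁻¹ * (L w')⁻¹ = L w' * L w * (L w')⁻¹ * (L w)⁻¹
    have h := hZ2 _ (hmc _ (hL w) _ (hL w'))
    set c := L w * L w' * (L w)⁻¹ * (L w')⁻¹ with hc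
    have e : L w' * L w * (L w')⁻¹ * (L w)⁻¹ = c⁻¹ := by rw [hc]; group
    rw [e]
    exact eq_inv_of_mul_eq_one_left h
  have hσ : ∀ a b, σ (a + b) = σ a + σ b + B a b := by
    intro w w'
    ext
    have e1 : mk (L w * L w') = (w + w').val := by
      rw [map_mul, hL', hL']; rfl
    rw [σ_eq _ _ (Q.mul_mem (hL w) (hL w')) e1]
    have hc := hmc _ (hL w) _ (hL w')
    exact sq_mul _ _ _ rfl (hZc _ hc _ (hL w)) (hZc _ hc _ (hL w')) (hZ2 _ hc)
  have hσeq : ∀ g a, σ (ρW g a) = ρZ g (σ a) := by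
    intro g w
    obtain ⟨g₀, rfl⟩ := S.surj g
    have e0 : π g₀ = piBar π Q Z hZQ S.ker_iff (mk g₀) := rfl
    have e1 : ρW (π g₀) = AbSub.act Qb hQbc (mk g₀) := by
      rw [e0]; exact hρW (mk g₀)
    ext
    rw [hρZ, e1]
    have e2 : mk (g₀ * L w * g₀⁻¹) = (AbSub.act Qb hQbc (mk g₀) w).val := by
      rw [map_mul, map_mul, hL', map_inv]; rfl
    rw [σ_eq _ _ (hQn.conj_mem _ (hL w) g₀) e2]
    change _ = g₀ * (L w * L w) * g₀⁻¹
    group
  have hB0 := B_zero ρW ρZ HW hZ'2 hrelZ' B σ hBadd hBsymm hσ hσeq d hd hd1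
  have hQc : ∀ a ∈ Q, ∀ b ∈ Q, a * b = b * a := by
    intro a ha b hb
    have e := congrArg AbSub.val (hB0 ⟨mk a, ⟨a, ha, rfl⟩⟩ ⟨mk b, ⟨b, hb, rfl⟩⟩)
    rw [B_eq _ _ a b ha hb rfl rfl] at e
    have e' : a * b * a⁻¹ * b⁻¹ = 1 := e
    have : a * b = b * a := by
      have h5 : a * b * a⁻¹ = b := mul_inv_eq_one.1 e'
      exact mul_inv_eq_iff_eq_mul.1 h5
    exact this
  refine ⟨hQc, ?_⟩
  -- the second part
  obtain ⟨ρ, hρ, hrel⟩ := Setup.rep S (AbSub.act Q hQc)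
    (by
      intro q hq
      ext a
      change q * a.val * q⁻¹ = a.val
      rw [hQc q hq _ a.mem, mul_assoc, mul_inv_cancel, mul_one])
    (by
      intro m hm
      have h1 : x * m.val * x⁻¹ = m.val := congrArg AbSub.val hm
      exact AbSub.ext (S.fix _ m.mem h1))
  have h4 : (4 : AddMonoid.End (AbSub Q hQc)) = 0 := by
    ext w
    have e : ((4 : AddMonoid.End (AbSub Q hQc)) w) = 4 • w := rfl
    rw [e, AbSub.nsmul_val]
    have : w.val ^ 4 = (w.val * w.val) * (w.val * w.val) := by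
      rw [show (4 : ℕ) = 2 + 2 from rfl, pow_add, pow_two]
    rw [this, hZ2 _ (hm2 _ w.mem)]
    rfl
  have h2 := two_eq_zero h4 ρ hrel d hd hd1
  intro a ha
  have e : ((2 : AddMonoid.End (AbSub Q hQc)) ⟨a, ha⟩) = 2 • (⟨a, ha⟩ : AbSub Q hQc) := rfl
  have e2 := congrArg AbSub.val (e.symm.trans (by rw [h2]; rfl : (2 : AddMonoid.End (AbSub Q hQc)) ⟨a, ha⟩ = 0))
  rw [AbSub.nsmul_val, pow_two] at e2
  exact e2

end Cfsg.Agent.Lib.SLFpf.Core
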