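import Mathlib

/-!
A module for `M₂(K)`, `K` a finite field, of finite cardinality, is a direct sum of natural modules.
-/

set_option autoImplicit false
set_option linter.unusedSectionVars false
set_option linter.unusedSimpArgs false
set_option linter.unusedVariables false
set_option linter.style.haveILetI false

open Matrix

namespace Cfsg.Agent.Lib.SLFpf.Decomp

variable {K : Type*} [Field K] {W : Type*} [AddCommGroup W]

/-- The column matrix with first column `v`. -/
def colMat (v : Fin 2 → K) : Matrix (Fin 2) (Fin 2) K := !![v 0, 0; v 1, 0]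

lemma colMat_add (v v' : Fin 2 → K) : colMat (v + v') = colMat v + colMat v' := by
  ext i j
  fin_cases i <;> fin_cases j <;> simp [colMat]

lemma mul_colMat (M : Matrix (Fin 2) (Fin 2) K) (v : Fin 2 → K) :
    M * colMat v = colMat (M.mulVec v) := by
  ext i j
  fin_cases i <;> fin_cases j <;>
    simp [colMat, Matrix.mul_apply, Fin.sum_univ_two, Matrix.mulVec, dotProduct]

/-- Matrix unit. -/
def e11 : Matrix (Fin 2) (Fin 2) K := !![1, 0; 0, 0]
/-- Matrix unit. -/
def e12 : Matrix (Fin 2) (Fin 2) K := !![0, 1; 0, 0]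
/-- Matrix unit. -/
def e21 : Matrix (Fin 2) (Fin 2) K := !![0, 0; 1, 0]
/-- Matrix unit. -/
def e22 : Matrix (Fin 2) (Fin 2) K := !![0, 0; 0, 1]

/-- **Decomposition.** -/
theorem exists_decomp [Finite W] [Fintype K] (Ψ : Matrix (Fin 2) (Fin 2) K →+* AddMonoid.End W) :
    ∃ (k : ℕ) (θ : Fin k → (Fin 2 → K) →+ W),
      (∀ i M v, Ψ M (θ i v) = θ i (M.mulVec v)) ∧
      Function.Bijective (fun f : Fin k → (Fin 2 → K) => ∑ i, θ i (f i)) := by
  classical
  -- the scalars
  let C : K →+* AddMonoid.End W := Ψ.comp (Matrix.scalar (Fin 2))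
  letI : Module K W := Module.compHom W C
  have hsmul : ∀ (c : K) (w : W), c • w = Ψ (Matrix.scalar (Fin 2) c) w := fun c w => rfl
  have hcomm : ∀ (M : Matrix (Fin 2) (Fin 2) K) (c : K),
      Matrix.scalar (Fin 2) c * M = M * Matrix.scalar (Fin 2) c := by
    intro M c
    ext i j
    simp [Matrix.scalar_apply, Matrix.mul_apply, Fin.sum_univ_two, Matrix.diagonal_apply, mul_comm]
  -- the `e₁₁`-part
  let L : W →ₗ[K] W :=
    { toFun := fun w => Ψ e11 w
      map_add' := fun a b => map_add _ _ _
      map_smul' := by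
        intro c w
        simp only [RingHom.id_apply, hsmul]
        change (Ψ e11 * Ψ (Matrix.scalar (Fin 2) c)) w = (Ψ (Matrix.scalar (Fin 2) c) * Ψ e11) w
        rw [← map_mul, ← map_mul, hcomm] }
  set W₁ := LinearMap.range L with hW₁
  haveI : Finite W₁ := inferInstance
  haveI : Module.Finite K W₁ := Module.Finite.of_finite
  let b := Module.finBasis K W₁
  have hm11 : (e11 * e11 : Matrix (Fin 2) (Fin 2) K) = e11 := by
    ext i j
    fin_cases i <;> fin_cases j <;> simp [e11, Matrix.mul_apply, Fin.sum_univ_two]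
  have hbv : ∀ i, Ψ e11 ((b i : W₁) : W) = ((b i : W₁) : W) := by
    intro i
    obtain ⟨w, hw⟩ := (b i).2
    rw [← hw]
    change (Ψ e11 * Ψ e11) w = Ψ e11 w
    rw [← map_mul, hm11]
  -- the embeddings
  let θ : Fin (Module.finrank K W₁) → (Fin 2 → K) →+ W := fun i =>
    { toFun := fun v => Ψ (colMat v) ((b i : W₁) : W)
      map_zero' := by
        have : colMat (0 : Fin 2 → K) = 0 := by
          ext i j
          fin_cases i <;> fin_cases j <;> simp [colMat]
        rw [this, map_zero]
        rfl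
      map_add' := by
        intro v v'
        rw [colMat_add, map_add]
        rfl }
  have hθ : ∀ i v, θ i v = Ψ (colMat v) ((b i : W₁) : W) := fun i v => rfl
  have heq : ∀ i M v, Ψ M (θ i v) = θ i (M.mulVec v) := by
    intro i M v
    rw [hθ, hθ, ← mul_colMat, map_mul]
    rfl
  -- the two projections
  have hp0 : ∀ i v, Ψ e11 (θ i v) = v 0 • ((b i : W₁) : W) := by
    intro i v
    have e : (e11 * colMat v : Matrix (Fin 2) (Fin 2) K) = Matrix.scalar (Fin 2) (v 0) * e11 := by
      ext i j
      fin_cases i <;> fin_cases j <;>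
        simp [e11, colMat, Matrix.mul_apply, Fin.sum_univ_two, Matrix.scalar_apply,
          Matrix.diagonal_apply]
    rw [hθ, hsmul]
    change (Ψ e11 * Ψ (colMat v)) _ = _
    rw [← map_mul, e, map_mul]
    change Ψ _ (Ψ e11 _) = _
    rw [hbv]
  have hp1 : ∀ i v, Ψ e12 (θ i v) = v 1 • ((b i : W₁) : W) := by
    intro i v
    have e : (e12 * colMat v : Matrix (Fin 2) (Fin 2) K) = Matrix.scalar (Fin 2) (v 1) * e11 := by
      ext i j
      fin_cases i <;> fin_cases j <;>
        simp [e11, e12, colMat, Matrix.mul_apply, Fin.sum_univ_two, Matrix.scalar_apply,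
          Matrix.diagonal_apply]
    rw [hθ, hsmul]
    change (Ψ e12 * Ψ (colMat v)) _ = _
    rw [← map_mul, e, map_mul]
    change Ψ _ (Ψ e11 _) = _
    rw [hbv]
  -- coefficients
  have hcoe : ∀ (c c' : Fin (Module.finrank K W₁) → K),
      ∑ i, c i • ((b i : W₁) : W) = ∑ i, c' i • ((b i : W₁) : W) → c = c' := by
    intro c c' h
    have h1 : (∑ i, c i • b i : W₁) = ∑ i, c' i • b i := by
      apply Subtype.ext
      simp only [Submodule.coe_sum, Submodule.coe_smul]
      exact h
    rw [← Module.Basis.repr_sum_self b c, ← Module.Basis.repr_sum_self b c', h1]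
  refine ⟨Module.finrank K W₁, θ, heq, ?_, ?_⟩
  · intro f f' h
    have h' : ∑ i, θ i (f i) = ∑ i, θ i (f' i) := h
    have k0 := congrArg (Ψ e11) h'
    have k1 := congrArg (Ψ e12) h'
    simp only [map_sum, hp0] at k0
    simp only [map_sum, hp1] at k1
    have c0 := hcoe _ _ k0
    have c1 := hcoe _ _ k1
    funext i
    funext j
    fin_cases j
    · exact congrFun c0 i
    · exact congrFun c1 i
  · intro w
    have hmem0 : Ψ e11 w ∈ W₁ := ⟨w, rfl⟩
    have h12 : (e11 * e12 : Matrix (Fin 2) (Fin 2) K) = e12 := by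
      ext i j
      fin_cases i <;> fin_cases j <;> simp [e11, e12, Matrix.mul_apply, Fin.sum_univ_two]
    have hmem1 : Ψ e12 w ∈ W₁ := by
      refine ⟨Ψ e12 w, ?_⟩
      change (Ψ e11 * Ψ e12) w = _
      rw [← map_mul, h12]
    set x := b.repr ⟨_, hmem0⟩ with hx
    set y := b.repr ⟨_, hmem1⟩ with hy
    refine ⟨fun i => ![x i, y i], ?_⟩
    change ∑ i, θ i ![x i, y i] = w
    have hsx : ∑ i, x i • ((b i : W₁) : W) = Ψ e11 w := by
      have := b.sum_repr ⟨_, hmem0⟩
      have h3 := congrArg Subtype.val this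
      simpa only [Submodule.coe_sum, Submodule.coe_smul] using h3
    have hsy : ∑ i, y i • ((b i : W₁) : W) = Ψ e12 w := by
      have := b.sum_repr ⟨_, hmem1⟩
      have h3 := congrArg Subtype.val this
      simpa only [Submodule.coe_sum, Submodule.coe_smul] using h3
    have hsplit : ∀ i, θ i ![x i, y i] = x i • ((b i : W₁) : W) + Ψ e21 (y i • ((b i : W₁) : W)) := by
      intro i
      have e1 : colMat ![x i, y i] = Matrix.scalar (Fin 2) (x i) * e11 +
          e21 * Matrix.scalar (Fin 2) (y i) * e11 := by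
        ext i j
        fin_cases i <;> fin_cases j <;>
          simp [e11, e21, colMat, Matrix.mul_apply, Matrix.add_apply, Fin.sum_univ_two,
            Matrix.scalar_apply, Matrix.diagonal_apply]
      rw [hθ, e1, map_add, map_mul, map_mul, map_mul]
      change Ψ _ (Ψ e11 _) + Ψ e21 (Ψ _ (Ψ e11 _)) = _
      rw [hbv, hsmul, hsmul]
    rw [Finset.sum_congr rfl (fun i _ => hsplit i), Finset.sum_add_distrib, hsx, ← map_sum, hsy]
    have h1 : (e11 + e21 * e12 : Matrix (Fin 2) (Fin 2) K) = 1 := by
      ext i j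
      fin_cases i <;> fin_cases j <;>
        simp [e11, e12, e21, Matrix.mul_apply, Matrix.add_apply, Fin.sum_univ_two]
    have h4 := congrArg (fun f : AddMonoid.End W => f w) (congrArg Ψ h1)
    simp only [map_add, map_mul, map_one] at h4
    exact h4

end Cfsg.Agent.Lib.SLFpf.Decomp
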