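import Cfsg.Agent.Lib.SLFpf.Core

/-!
The induction: `Q` is elementary abelian.
-/

set_option autoImplicit false
set_option linter.unusedSectionVars false
set_option linter.unusedSimpArgs false
set_option linter.unusedVariables false
set_option linter.style.haveILetI false

open scoped MatrixGroups
open Matrix

namespace Cfsg.Agent.Lib.SLFpf.Elem

open Cfsg.Agent.Lib.SLFpf.SecRep Cfsg.Agent.Lib.SLFpf.Core

universe u

variable {K : Type*} [Field K] [CharP K 2] [PerfectRing K 2]

/-- The elementary abelian part of the centre of `Q`. -/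
def omegaCenter {G : Type*} [Group G] (Q : Subgroup G) : Subgroup G where
  carrier := {q | q ∈ Q ∧ (∀ q' ∈ Q, q * q' = q' * q) ∧ q * q = 1}
  mul_mem' := by
    rintro a b ⟨ha, hac, ha2⟩ ⟨hb, hbc, hb2⟩
    refine ⟨Q.mul_mem ha hb, ?_, ?_⟩
    · intro q' hq'
      rw [mul_assoc, hbc q' hq', ← mul_assoc, hac q' hq', mul_assoc]
    · calc a * b * (a * b) = a * (b * a) * b := by group
        _ = a * (a * b) * b := by rw [← hac b hb]
        _ = (a * a) * (b * b) := by group
        _ = 1 := by rw [ha2, hb2, one_mul]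
  one_mem' := ⟨Q.one_mem, by simp, by simp⟩
  inv_mem' := by
    rintro a ⟨ha, hac, ha2⟩
    refine ⟨Q.inv_mem ha, ?_, ?_⟩
    · intro q' hq'
      have := hac q' hq'
      rw [eq_mul_inv_iff_mul_eq, mul_assoc, ← this, ← mul_assoc, inv_mul_cancel, one_mul]
    · rw [← _root_.mul_inv_rev, ha2, inv_one]

lemma omegaCenter_normal {G : Type*} [Group G] (Q : Subgroup G) (hQ : Q.Normal) :
    (omegaCenter Q).Normal := by
  constructor
  rintro a ⟨ha, hac, ha2⟩ g
  refine ⟨hQ.conj_mem a ha g, ?_, ?_⟩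
  · intro q' hq'
    have h1 : g⁻¹ * q' * g ∈ Q := by
      have := hQ.conj_mem q' hq' g⁻¹
      rwa [inv_inv] at this
    have h2 := hac _ h1
    calc g * a * g⁻¹ * q' = g * (a * (g⁻¹ * q' * g)) * g⁻¹ := by group
      _ = g * ((g⁻¹ * q' * g) * a) * g⁻¹ := by rw [h2]
      _ = _ := by group
  · calc g * a * g⁻¹ * (g * a * g⁻¹) = g * (a * a) * g⁻¹ := by group
      _ = 1 := by rw [ha2]; group

lemma omegaCenter_ne_bot {G : Type*} [Group G] [Finite G] (Q : Subgroup G) (hp : IsPGroup 2 Q)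
    (hQ : Q ≠ ⊥) : ∃ z ∈ omegaCenter Q, z ≠ 1 := by
  haveI : Fact (Nat.Prime 2) := ⟨Nat.prime_two⟩
  haveI : Nontrivial Q := (Subgroup.nontrivial_iff_ne_bot Q).2 hQ
  haveI : Finite Q := inferInstance
  have hc : Nontrivial (Subgroup.center Q) := hp.center_nontrivial
  have hpc : IsPGroup 2 (Subgroup.center Q) := hp.to_subgroup _
  obtain ⟨n, hn, hcard⟩ := hpc.nontrivial_iff_card.1 hc
  have hdvd : 2 ∣ Nat.card (Subgroup.center Q) := by
    rw [hcard]; exact dvd_pow_self 2 (by omega)
  obtain ⟨c, hc2⟩ := exists_prime_orderOf_dvd_card' 2 hdvd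
  have hc1 : c ^ 2 = 1 := by rw [← hc2]; exact pow_orderOf_eq_one c
  have hne : c ≠ 1 := by
    intro h
    rw [h, orderOf_one] at hc2
    omega
  refine ⟨((c : Q) : G), ⟨(c : Q).2, ?_, ?_⟩, ?_⟩
  · intro q' hq'
    have := (Subgroup.mem_center_iff.1 c.2) ⟨q', hq'⟩
    exact (congrArg Subtype.val this).symm
  · have := congrArg (fun y : Subgroup.center Q => ((y : Q) : G)) hc1
    simpa [pow_two] using this
  · intro h
    apply hne
    exact Subtype.ext (Subtype.ext h)

/-- **`Q` is elementary abelian.** -/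
theorem elem [Fintype K] (d : K) (hd : d ≠ 0) (hd1 : d ≠ 1) :
    ∀ (n : ℕ) {G : Type u} [Group G] [Finite G] (Q : Subgroup G) (π : G →* SL(2, K)) (x : G),
      Setup Q π x → IsPGroup 2 Q → Nat.card Q = n →
      (∀ a ∈ Q, ∀ b ∈ Q, a * b = b * a) ∧ ∀ a ∈ Q, a * a = 1 := by
  intro n
  induction n using Nat.strong_induction_on with
  | _ n IH =>
    intro G _ _ Q π x S hp hn
    by_cases hQ : Q = ⊥
    · subst hQ
      refine ⟨?_, ?_⟩
      · intro a ha b hb
        rw [Subgroup.mem_bot] at ha hb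
        rw [ha, hb]
      · intro a ha
        rw [Subgroup.mem_bot] at ha
        rw [ha, one_mul]
    have hQn : Q.Normal := Setup.normal S
    set Z := omegaCenter Q with hZ
    haveI hZn : Z.Normal := omegaCenter_normal Q hQn
    obtain ⟨z₀, hz₀, hz₀1⟩ := omegaCenter_ne_bot Q hp hQ
    have hZQ : Z ≤ Q := fun z hz => hz.1
    have Sb := Setup.quot S Z hZQ
    have hpb : IsPGroup 2 (Q.map (QuotientGroup.mk' Z)) := hp.map _
    -- the cardinality drops
    have hlt : Nat.card (Q.map (QuotientGroup.mk' Z)) < Nat.card Q := by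
      by_contra hge
      push Not at hge
      have hsurj : Function.Surjective ((QuotientGroup.mk' Z).subgroupMap Q) :=
        (QuotientGroup.mk' Z).subgroupMap_surjective Q
      have hbij := Function.Surjective.bijective_of_nat_card_le hsurj hge
      have hinj := hbij.1
      have e : (QuotientGroup.mk' Z).subgroupMap Q ⟨z₀, hz₀.1⟩ =
          (QuotientGroup.mk' Z).subgroupMap Q 1 := by
        apply Subtype.ext
        change (QuotientGroup.mk z₀ : G ⧸ Z) = QuotientGroup.mk 1
        rw [QuotientGroup.eq]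
        simpa using hz₀
      have := hinj e
      exact hz₀1 (congrArg Subtype.val this)
    rw [hn] at hlt
    obtain ⟨h1, h2⟩ := IH _ hlt (Q.map (QuotientGroup.mk' Z)) _ _ Sb hpb rfl
    have hmc : ∀ a ∈ Q, ∀ b ∈ Q, a * b * a⁻¹ * b⁻¹ ∈ Z := by
      intro a ha b hb
      have h3 := h1 _ ⟨a, ha, rfl⟩ _ ⟨b, hb, rfl⟩
      rw [← QuotientGroup.eq_one_iff, QuotientGroup.mk_mul, QuotientGroup.mk_mul, QuotientGroup.mk_mul,
        QuotientGroup.mk_inv, QuotientGroup.mk_inv]
      have h4 : (QuotientGroup.mk a : G ⧸ Z) * QuotientGroup.mk b =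
        QuotientGroup.mk b * QuotientGroup.mk a := h3
      rw [h4]
      group
    have hm2 : ∀ a ∈ Q, a * a ∈ Z := by
      intro a ha
      have h3 := h2 _ ⟨a, ha, rfl⟩
      rw [← QuotientGroup.eq_one_iff, QuotientGroup.mk_mul]
      exact h3
    exact core S d hd hd1 Z hZQ (fun z hz q hq => hz.2.1 q hq) (fun z hz => hz.2.2) hmc hm2

end Cfsg.Agent.Lib.SLFpf.Elem
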