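import Cfsg.Agent.Lib.SLFpf.Elem
import Cfsg.Agent.Lib.SLFpf.Decomp
import Cfsg.Prelude.Def_BaumannBlocks

/-!
The final assembly: `Q` is a direct product of natural modules.
-/

set_option autoImplicit false
set_option linter.unusedSectionVars false
set_option linter.unusedSimpArgs false
set_option linter.unusedVariables false
set_option linter.style.haveILetI false

open scoped MatrixGroups
open Matrix

namespace Cfsg.Agent.Lib.SLFpf.Final

open Cfsg.Agent.Lib.SLFpf.Tv Cfsg.Agent.Lib.SLFpf.MatExt Cfsg.Agent.Lib.SLFpf.MatExt2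
open Cfsg.Agent.Lib.SLFpf.BVanish Cfsg.Agent.Lib.SLFpf.SecRep Cfsg.Agent.Lib.SLFpf.Core
open Cfsg.Agent.Lib.SLFpf.Elem Cfsg.Agent.Lib.SLFpf.Decomp
open Cfsg.Agent.Lib.SLFpf

/-- **The statement.** -/
theorem main {G : Type*} [Group G] [Finite G]
    (Q : Subgroup G) [hQn : Q.Normal] (hQ : IsPGroup 2 ↥Q) (n : ℕ) (hn : 2 ≤ n)
    (K : Type*) [Field K] [Fintype K] (hK : Fintype.card K = 2 ^ n)
    (e : G ⧸ Q ≃* Matrix.SpecialLinearGroup (Fin 2) K)
    (x : G) (hx : orderOf x = 3) (hfpf : ∀ q ∈ Q, x * q * x⁻¹ = q → q = 1) :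
    Cfsg.IsElementaryAbelian 2 Q ∧
      ∃ (k : ℕ) (V : Fin k → Subgroup G), (∀ i, V i ≤ Q ∧ (V i).Normal ∧
        Cfsg.ActsAsSL2OnSection K ⊤ ⊤ (V i) ⊥) ∧ iSupIndep V ∧ ⨆ i, V i = Q := by
  classical
  -- the characteristic
  haveI hchar : CharP K 2 := by
    obtain ⟨p, hp⟩ := CharP.exists K
    haveI := hp
    have hpp : p.Prime := by
      rcases CharP.char_is_prime_or_zero K p with h | h
      · exact h
      · subst h
        haveI := CharP.charP_to_charZero K
        exact absurd (inferInstance : Infinite K) (not_infinite_iff_finite.2 inferInstance)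
    haveI : Fact p.Prime := ⟨hpp⟩
    obtain ⟨m, -, hm⟩ := FiniteField.card K p
    have : p = 2 := by
      have h1 : p ∣ 2 ^ n := by
        rw [← hK, hm]
        exact dvd_pow_self p m.ne_zero
      exact (Nat.prime_dvd_prime_iff_eq hpp Nat.prime_two).1 (hpp.dvd_of_dvd_pow h1)
    rwa [this] at hp
  haveI : PerfectRing K 2 := inferInstance
  -- an element outside the prime field
  obtain ⟨d, hd, hd1⟩ : ∃ d : K, d ≠ 0 ∧ d ≠ 1 := by
    by_contra hcon
    push Not at hcon
    have hle : Fintype.card K ≤ ({0, 1} : Finset K).card := by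
      rw [← Finset.card_univ]
      apply Finset.card_le_card
      intro d _
      by_cases h : d = 0
      · simp [h]
      · simp [hcon d h]
    have h4 : 4 ≤ Fintype.card K := by
      rw [hK]
      calc 4 = 2 ^ 2 := rfl
        _ ≤ 2 ^ n := Nat.pow_le_pow_right (by norm_num) hn
    have : ({0, 1} : Finset K).card ≤ 2 := Finset.card_le_two
    omega
  -- the set-up
  set π : G →* SL(2, K) := e.toMonoidHom.comp (QuotientGroup.mk' Q) with hπ
  have hπa : ∀ g, π g = e (QuotientGroup.mk g) := fun g => rfl
  have hker : ∀ g, π g = 1 ↔ g ∈ Q := by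
    intro g
    rw [hπa, map_eq_one_iff e e.injective, QuotientGroup.eq_one_iff]
  have S : Setup Q π x :=
    { surj := by
        intro z
        obtain ⟨q, hq⟩ := e.surjective z
        obtain ⟨g, rfl⟩ := QuotientGroup.mk_surjective q
        exact ⟨g, hq⟩
      ker_iff := hker
      x3 := by rw [← hx]; exact pow_orderOf_eq_one x
      xne := by
        intro h
        have hxQ := (hker x).1 h
        obtain ⟨m, hm⟩ := hQ ⟨x, hxQ⟩
        have h1 : x ^ (2 ^ m) = 1 := congrArg Subtype.val hm
        have h2 := orderOf_dvd_of_pow_eq_one h1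
        rw [hx] at h2
        have := Nat.Prime.dvd_of_dvd_pow Nat.prime_three h2
        omega
      fix := hfpf }
  obtain ⟨hc, h2⟩ := elem d hd hd1 _ Q π x S hQ rfl
  have hEA : Cfsg.IsElementaryAbelian 2 Q := by
    refine ⟨⟨⟨fun a b => Subtype.ext (hc _ a.2 _ b.2)⟩⟩, ?_⟩
    intro a ha
    rw [pow_two]
    exact h2 a ha
  refine ⟨hEA, ?_⟩
  -- the module
  obtain ⟨ρ, hρ, hrel⟩ := Setup.rep S (AbSub.act Q hc)
    (by
      intro q hq
      ext a
      change q * a.val * q⁻¹ = a.val
      rw [hc q hq _ a.mem, mul_assoc, mul_inv_cancel, mul_one])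
    (by
      intro m hm
      have h1 : x * m.val * x⁻¹ = m.val := congrArg AbSub.val hm
      exact AbSub.ext (S.fix _ m.mem h1))
  have H : Hyp ρ := by
    refine ⟨?_, hrel⟩
    ext w
    have e1 : ((2 : AddMonoid.End (AbSub Q hc)) w) = 2 • w := rfl
    rw [e1, AbSub.nsmul_val, pow_two, h2 _ w.mem]
    rfl
  obtain ⟨Ψ, hΨ⟩ := exists_ringHom H
  obtain ⟨k, θ, heq, hbij⟩ := exists_decomp Ψ
  set Φ := fun f : Fin k → (Fin 2 → K) => ∑ i, θ i (f i) with hΦ
  -- the action
  have hact : ∀ (g : G) (i : Fin k) (v : Fin 2 → K),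
      g * (θ i v).val * g⁻¹ = (θ i ((π g).1.mulVec v)).val := by
    intro g i v
    have e1 : AbSub.act Q hc g (θ i v) = θ i ((π g).1.mulVec v) := by
      rw [← hρ, ← hΨ, heq]
    have := congrArg AbSub.val e1
    exact this
  -- `Φ` on a single coordinate
  have hsingle : ∀ (i : Fin k) (v : Fin 2 → K), Φ (Function.update (0 : Fin k → Fin 2 → K) i v) = θ i v := by
    intro i v
    change ∑ j, θ j (Function.update (0 : Fin k → Fin 2 → K) i v j) = θ i v
    rw [Finset.sum_eq_single i]
    · rw [Function.update_self]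
    · intro j _ hj
      rw [Function.update_of_ne hj]
      exact map_zero _
    · simp
  have hθinj : ∀ i, Function.Injective (θ i) := by
    intro i v v' h
    have h1 : Φ (Function.update (0 : Fin k → Fin 2 → K) i v) = Φ (Function.update (0 : Fin k → Fin 2 → K) i v') := by
      rw [hsingle, hsingle, h]
    have h3 := hbij.1 h1
    have h4 := congrFun h3 i
    rwa [Function.update_self, Function.update_self] at h4
  -- the subgroups
  let V : Fin k → Subgroup G := fun i =>
    { carrier := {g | ∃ v, (θ i v).val = g}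
      mul_mem' := by
        rintro _ _ ⟨v, rfl⟩ ⟨v', rfl⟩
        exact ⟨v + v', by rw [map_add, AbSub.add_val]⟩
      one_mem' := ⟨0, by rw [map_zero]; rfl⟩
      inv_mem' := by
        rintro _ ⟨v, rfl⟩
        exact ⟨-v, by rw [map_neg, AbSub.neg_val]⟩ }
  have hVmem : ∀ i g, g ∈ V i ↔ ∃ v, (θ i v).val = g := fun i g => Iff.rfl
  have hVQ : ∀ i, V i ≤ Q := by
    rintro i _ ⟨v, rfl⟩
    exact (θ i v).mem
  have hVn : ∀ i, (V i).Normal := by
    intro i
    constructor
    rintro _ ⟨v, rfl⟩ g
    exact ⟨(π g).1.mulVec v, (hact g i v).symm⟩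
  refine ⟨k, V, ?_, ?_, ?_⟩
  · intro i
    refine ⟨hVQ i, hVn i, ?_, bot_le, ?_⟩
    · intro g _
      rw [Subgroup.mem_normalizer_iff]
      intro h
      constructor
      · intro hh
        exact (hVn i).conj_mem h hh g
      · intro hh
        have := (hVn i).conj_mem _ hh g⁻¹
        have e1 : g⁻¹ * (g * h * g⁻¹) * g⁻¹⁻¹ = h := by group
        rwa [e1] at this
    · -- the coordinates on `V i`
      have hch : ∀ u : V i, ∃ v, (θ i v).val = (u : G) := fun u => u.2
      choose co hco using hch
      have hco_eq : ∀ (u : V i) (v : Fin 2 → K), (θ i v).val = (u : G) → co u = v := by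
        intro u v h
        apply hθinj i
        apply AbSub.ext
        rw [hco, h]
      let ψ : V i →* Multiplicative (Fin 2 → K) :=
        { toFun := fun u => Multiplicative.ofAdd (co u)
          map_one' := by
            have : co (1 : V i) = 0 := by
              apply hco_eq
              rw [map_zero]
              rfl
            rw [this]
            rfl
          map_mul' := by
            intro u u'
            have : co (u * u') = co u + co u' := by
              apply hco_eq
              rw [map_add, AbSub.add_val, hco, hco]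
              rfl
            rw [this]
            rfl }
      refine ⟨π.comp (⊤ : Subgroup G).subtype, ψ, ?_, ?_, ?_, ?_⟩
      · rw [MonoidHom.range_eq_top]
        intro z
        obtain ⟨g, hg⟩ := S.surj z
        exact ⟨⟨g, trivial⟩, hg⟩
      · intro z
        refine ⟨⟨(θ i (Multiplicative.toAdd z)).val, _, rfl⟩, ?_⟩
        change Multiplicative.ofAdd (co _) = z
        rw [hco_eq _ (Multiplicative.toAdd z) rfl]
        rfl
      · intro u
        constructor
        · intro h
          have h1 : co u = 0 := Multiplicative.ofAdd.injective h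
          have h3 := hco u
          rw [h1, map_zero] at h3
          rw [Subgroup.mem_bot]
          exact h3.symm
        · intro h
          rw [Subgroup.mem_bot] at h
          have hu : u = 1 := Subtype.ext h
          rw [hu, map_one]
      · intro g u
        refine ⟨⟨(g : G) * (u : G) * (g : G)⁻¹, (hVn i).conj_mem _ u.2 _⟩, rfl, ?_⟩
        change co _ = ((π g.1).1).mulVec (co u)
        apply hco_eq
        rw [← hact, hco]
  · -- independence
    intro i
    rw [Subgroup.disjoint_def]
    intro y hy hy'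
    -- the complement
    let T : Subgroup G :=
      { carrier := {g | ∃ f : Fin k → (Fin 2 → K), f i = 0 ∧ (Φ f).val = g}
        mul_mem' := by
          rintro _ _ ⟨f, hf, rfl⟩ ⟨f', hf', rfl⟩
          refine ⟨f + f', by rw [Pi.add_apply, hf, hf', add_zero], ?_⟩
          have : Φ (f + f') = Φ f + Φ f' := by
            simp only [hΦ, Pi.add_apply, map_add, Finset.sum_add_distrib]
          rw [this, AbSub.add_val]
        one_mem' := ⟨0, rfl, by simp [hΦ]⟩
        inv_mem' := by
          rintro _ ⟨f, hf, rfl⟩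
          refine ⟨-f, by rw [Pi.neg_apply, hf, neg_zero], ?_⟩
          have : Φ (-f) = -Φ f := by
            simp only [hΦ, Pi.neg_apply, map_neg, Finset.sum_neg_distrib]
          rw [this, AbSub.neg_val] }
    have hT : (⨆ j, ⨆ (_ : j ≠ i), V j) ≤ T := by
      apply iSup_le
      intro j
      apply iSup_le
      intro hj
      rintro _ ⟨v, rfl⟩
      refine ⟨Function.update (0 : Fin k → Fin 2 → K) j v, ?_, by rw [hsingle]⟩
      rw [Function.update_of_ne hj.symm]
      rfl
    obtain ⟨f, hf, hfy⟩ := hT hy'
    obtain ⟨v, hv⟩ := hy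
    have h1 : Φ f = Φ (Function.update (0 : Fin k → Fin 2 → K) i v) := by
      apply AbSub.ext
      rw [hsingle, hfy, hv]
    have h3 := hbij.1 h1
    have h4 := congrFun h3 i
    rw [Function.update_self, hf] at h4
    rw [← hv, ← h4, map_zero]
    rfl
  · -- the span
    apply le_antisymm
    · exact iSup_le hVQ
    · intro a ha
      obtain ⟨f, hf⟩ := hbij.2 (⟨a, ha⟩ : AbSub Q hc)
      have h1 : a = (Φ f).val := by rw [hf]
      rw [h1]
      have key : ∀ s : Finset (Fin k), (∑ j ∈ s, θ j (f j)).val ∈ ⨆ i, V i := by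
        intro s
        induction s using Finset.induction_on with
        | empty => simp
        | insert j s hj ih =>
          rw [Finset.sum_insert hj, AbSub.add_val]
          exact Subgroup.mul_mem _ (Subgroup.mem_iSup_of_mem j ⟨f j, rfl⟩) ih
      exact key Finset.univ

end Cfsg.Agent.Lib.SLFpf.Final
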