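import Cfsg.Agent.Lib.SLFpf.Tv

/-!
The ring `F₂[SL₂(K)] / (1 + z + z⁻¹ : tr z = 1)` is `M₂(K)`: a homomorphism of `SL₂(K)` into the
unit group of a ring of characteristic two in which all elements of trace one satisfy
`1 + z + z⁻¹ = 0` extends to a ring homomorphism on `M₂(K)`.
-/

set_option autoImplicit false
set_option linter.unusedSectionVars false
set_option linter.unusedSimpArgs false
set_option linter.unusedVariables false

open scoped MatrixGroups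
open Matrix

namespace Cfsg.Agent.Lib.SLFpf.MatExt

open Cfsg.Agent.Lib.SLFpf.Tv

variable {K : Type*} [Field K] [CharP K 2] {A : Type*} [Ring A]

/-- The standing hypotheses. -/
structure Hyp (ρ : SL(2, K) →* A) : Prop where
  two : (2 : A) = 0
  rel : ∀ z : SL(2, K), z.1 0 0 + z.1 1 1 = 1 → 1 + ρ z + ρ z⁻¹ = 0

variable {ρ : SL(2, K) →* A} (H : Hyp ρ)

include H

lemma Hyp.dbl (x : A) : x + x = 0 := by
  have : x + x = (2 : A) * x := by noncomm_ring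
  rw [this, H.two, zero_mul]

lemma Hyp.eq_of_add (x y : A) (h : x + y = 0) : x = y := by
  have h1 : x + y + y = y := by rw [h, zero_add]
  rwa [add_assoc, H.dbl, add_zero] at h1

omit H in
lemma t_sq (a b : K) : ρ (tv a b) * ρ (tv a b) = 1 := by
  rw [← map_mul, tv_mul_self, map_one]

lemma anti (a₁ b₁ a₂ b₂ : K) (h : a₁ * b₂ + a₂ * b₁ = 1) :
    ρ (tv a₁ b₁) * ρ (tv a₂ b₂) + ρ (tv a₂ b₂) * ρ (tv a₁ b₁) = 1 := by
  have h1 := H.rel (tv a₁ b₁ * tv a₂ b₂) (trace_tv_mul a₁ b₁ a₂ b₂ h)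
  rw [_root_.mul_inv_rev, tv_inv, tv_inv, map_mul, map_mul] at h1
  have h2 := H.dbl 1
  exact H.eq_of_add _ _ (by rw [add_comm, ← add_assoc]; exact h1)

lemma t_add (a₁ b₁ a₂ b₂ : K) (h : a₁ * b₂ + a₂ * b₁ = 1) :
    ρ (tv (a₁ + a₂) (b₁ + b₂)) = ρ (tv a₁ b₁) + ρ (tv a₂ b₂) := by
  rw [tv_add a₁ b₁ a₂ b₂ h, map_mul, map_mul]
  have h1 := anti H a₁ b₁ a₂ b₂ h
  set t := ρ (tv a₁ b₁)
  set s := ρ (tv a₂ b₂)
  have ht : t * t = 1 := t_sq a₁ b₁
  have h2 : t * (t * s + s * t) = t := by rw [h1, mul_one]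
  rw [mul_add, ← mul_assoc, ht, one_mul] at h2
  have h3 : t * s * t = t * (s * t) := mul_assoc _ _ _
  rw [h3]
  apply H.eq_of_add
  have : t * (s * t) + (t + s) = (s + t * (s * t)) + t := by abel
  rw [this, h2, H.dbl]

omit H in
/-- The anticommutator with the fixed lower transvection. -/
def J (ρ : SL(2, K) →* A) (a b : K) : A := ρ (tv a b) * ρ (tv 0 1) + ρ (tv 0 1) * ρ (tv a b)

lemma J_zero (b : K) : J ρ 0 b = 0 := by
  unfold J
  rw [← map_mul, ← map_mul, tv_comm_zero, H.dbl]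

lemma J_one (b : K) : J ρ 1 b = 1 := anti H 1 b 0 1 (by ring)

lemma J_add (a₁ b₁ a₂ b₂ : K) (h : a₁ * b₂ + a₂ * b₁ = 1) :
    J ρ (a₁ + a₂) (b₁ + b₂) = J ρ a₁ b₁ + J ρ a₂ b₂ := by
  unfold J
  rw [t_add H a₁ b₁ a₂ b₂ h]
  noncomm_ring

lemma J_period (a b : K) (ha : a ≠ 0) : J ρ a (b + a⁻¹) = J ρ a b := by
  have h := J_add H a b 0 a⁻¹ (by rw [mul_inv_cancel₀ ha]; ring)
  rwa [add_zero, J_zero H, add_zero] at h

lemma J_T (a b₁ b₂ : K) (h : b₂ + (a + 1) * b₁ = 1) :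
    J ρ a (b₁ + b₂) = 1 + J ρ (a + 1) b₂ := by
  have h2 : (2 : K) = 0 := two_K
  have h1 := J_add H 1 b₁ (a + 1) b₂ (by rw [one_mul]; exact h)
  rw [J_one H] at h1
  have e : (1 : K) + (a + 1) = a := by grind
  rwa [e] at h1

lemma J_P2 (a b : K) (ha : a ≠ 0) (ha1 : a ≠ 1) :
    J ρ a (b + a * ((a + 1)⁻¹ * (a + 1)⁻¹)) = J ρ a b := by
  have h2 : (2 : K) = 0 := two_K
  have hn : a + 1 ≠ 0 := by
    intro h; apply ha1; grind
  set i := (a + 1)⁻¹ with hi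
  have hii : (a + 1) * i = 1 := mul_inv_cancel₀ hn
  have hai : a * a⁻¹ = 1 := mul_inv_cancel₀ ha
  set b₂ := (1 + (a + 1) * b) * a⁻¹ with hb₂
  set b₁ := b + b₂ with hb₁
  have e1 : b₂ + (a + 1) * b₁ = 1 := by rw [hb₁, hb₂]; grind
  have e2 : (b₂ + i) + (a + 1) * (b₁ + i * i) = 1 := by grind
  have e3 : b₁ + b₂ = b := by rw [hb₁]; grind
  have e4 : (b₁ + i * i) + (b₂ + i) = b + a * (i * i) := by grind
  have k1 := J_T H a b₁ b₂ e1
  have k2 := J_T H a (b₁ + i * i) (b₂ + i) e2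
  rw [e3] at k1
  rw [e4, hi, J_period H (a + 1) b₂ hn, ← k1] at k2
  exact k2

lemma J_P3 (a b : K) (ha : a ≠ 0) (ha1 : a ≠ 1) :
    J ρ a (b + (a⁻¹ + a * ((a + 1)⁻¹ * (a + 1)⁻¹))) = J ρ a b := by
  rw [← add_assoc, J_P2 H _ _ ha ha1, J_period H _ _ ha]

/-- The key periodicity. -/
lemma J_Q (r b : K) (hr : r ≠ 0) (hr1 : r ≠ 1) :
    J ρ (r * r) (b + (r * r + 1)⁻¹) = J ρ (r * r) b := by
  have h2 : (2 : K) = 0 := two_K
  have hn : r + 1 ≠ 0 := by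
    intro h; apply hr1; grind
  have ha' : r * r + r ≠ 0 := by
    have : r * r + r = r * (r + 1) := by ring
    rw [this]; exact mul_ne_zero hr hn
  have ha : r * r ≠ 0 := mul_ne_zero hr hr
  have ha1 : r * r + 1 ≠ 0 := by
    have : r * r + 1 = (r + 1) * (r + 1) := by grind
    rw [this]; exact mul_ne_zero hn hn
  set i := (r + 1)⁻¹ with hi
  have hii : (r + 1) * i = 1 := mul_inv_cancel₀ hn
  have hri : r * r⁻¹ = 1 := mul_inv_cancel₀ hr
  set a' := r * r + r with ha'def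
  have hai : a' * a'⁻¹ = 1 := mul_inv_cancel₀ ha'
  have hj : (r * r) * (r * r)⁻¹ = 1 := mul_inv_cancel₀ ha
  have hk : (r * r + 1) * (r * r + 1)⁻¹ = 1 := mul_inv_cancel₀ ha1
  set b₂ := (1 + r * b) * (r * r)⁻¹ with hb₂
  set b₁ := b + b₂ with hb₁
  set s₁ := a'⁻¹ with hs₁
  set s₂ := r⁻¹ + r * (i * i) with hs₂
  have e0 : a' + r = r * r := by rw [ha'def]; grind
  have e1 : a' * b₂ + r * b₁ = 1 := by rw [hb₁, hb₂, ha'def]; grind
  have es : a' * s₂ + r * s₁ = 0 := by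
    have e5 : a' = r * (r + 1) := by rw [ha'def]; ring
    have e6 : s₁ = r⁻¹ * i := by rw [hs₁, e5, mul_inv]
    rw [e6, hs₂, e5]
    grind
  have e2 : a' * (b₂ + s₂) + r * (b₁ + s₁) = 1 := by grind
  have e3 : b₁ + b₂ = b := by rw [hb₁]; grind
  have e4 : (b₁ + s₁) + (b₂ + s₂) = b + (r * r + 1)⁻¹ := by
    have e5 : a' = r * (r + 1) := by rw [ha'def]; ring
    have e6 : s₁ = r⁻¹ * i := by rw [hs₁, e5, mul_inv]
    have e7 : (r * r + 1)⁻¹ = i * i := by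
      have : r * r + 1 = (r + 1) * (r + 1) := by grind
      rw [this, mul_inv]
    rw [e7, e6, hs₂, hb₁]
    grind
  have k1 := J_add H a' b₁ r b₂ e1
  have k2 := J_add H a' (b₁ + s₁) r (b₂ + s₂) e2
  rw [e0, e3] at k1
  rw [e0, e4, hs₁, J_period H a' b₁ ha', hs₂, J_P3 H r b₂ hr hr1, ← k1] at k2
  exact k2


lemma J_E (r : K) (hr : r ≠ 0) (hr1 : r ≠ 1) :
    J ρ (r * r) 0 + J ρ (r * r + 1) 0 = 1 := by
  have h2 : (2 : K) = 0 := two_K
  have hn : r + 1 ≠ 0 := by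
    intro h; apply hr1; grind
  have ha : r * r ≠ 0 := mul_ne_zero hr hr
  have hai : (r * r) * (r * r)⁻¹ = 1 := mul_inv_cancel₀ ha
  have h1 := J_add H (r * r) 0 (r * r + 1) (r * r)⁻¹ (by grind)
  have e : r * r + (r * r + 1) = 1 := by grind
  rw [e, J_one H] at h1
  have e2 : r * r + 1 = (r + 1) * (r + 1) := by grind
  have h3 := J_Q H (r + 1) 0 hn (by intro h; apply hr; grind)
  have e3 : (r + 1) * (r + 1) + 1 = r * r := by grind
  rw [e3, zero_add] at h3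
  rw [e2, h3, ← e2] at h1
  exact h1.symm

/-- The quadratic action on the root group. -/
lemma claimA (r : K) (hr : r ≠ 0) (hr1 : r ≠ 1) :
    (1 + ρ (tv (r * r) 0)) * (1 + ρ (tv (r * r + 1) 0)) = 0 := by
  have h2 : (2 : K) = 0 := two_K
  have hE := J_E H r hr hr1
  set t₁ := ρ (tv (r * r) 0) with ht₁
  set t₂ := ρ (tv (r * r + 1) 0) with ht₂
  set σ := ρ (tv 0 1) with hσ
  have e : r * r + (r * r + 1) = 1 := by grind
  have htt : ρ (tv 1 0) = t₁ * t₂ := by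
    rw [← e, tv_add_right, map_mul]
  have hc : t₁ * t₂ = t₂ * t₁ := by
    rw [ht₁, ht₂, ← map_mul, ← map_mul, tv_comm_zero']
  have h1 : t₁ * t₁ = 1 := t_sq _ _
  have h3 : t₂ * t₂ = 1 := t_sq _ _
  have hJ1 : J ρ 1 0 = 1 := J_one H 0
  have hJ1' : (t₁ * t₂) * σ + σ * (t₁ * t₂) = 1 := by
    have := hJ1; unfold J at this; rwa [htt] at this
  have hE' : (t₁ * σ + σ * t₁) + (t₂ * σ + σ * t₂) = 1 := hE
  set Y := (1 + t₁) * (1 + t₂) with hY
  have hYσ : Y * σ + σ * Y = 0 := by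
    have : Y * σ + σ * Y = (σ + σ) + ((t₁ * σ + σ * t₁) + (t₂ * σ + σ * t₂)) +
        ((t₁ * t₂) * σ + σ * (t₁ * t₂)) := by
      rw [hY]; noncomm_ring
    rw [this, hE', hJ1', H.dbl, zero_add, H.dbl]
  have hYt : Y * (t₁ * t₂) = Y := by
    have h4 : (1 + t₂) * t₂ = 1 + t₂ := by rw [add_mul, one_mul, h3, add_comm]
    have h5 : (1 + t₁) * t₁ = 1 + t₁ := by rw [add_mul, one_mul, h1, add_comm]
    have h6 : (1 + t₂) * t₁ = t₁ * (1 + t₂) := by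
      rw [add_mul, mul_add, one_mul, mul_one, hc]
    calc Y * (t₁ * t₂) = (1 + t₁) * (((1 + t₂) * t₂) * t₁) := by
          rw [hY, hc]; noncomm_ring
      _ = ((1 + t₁) * t₁) * (1 + t₂) := by rw [h4, h6]; noncomm_ring
      _ = Y := by rw [h5]
  have hcomm : Y * σ = σ * Y := H.eq_of_add _ _ hYσ
  calc Y = Y * ((t₁ * t₂) * σ + σ * (t₁ * t₂)) := by rw [hJ1', mul_one]
    _ = (Y * (t₁ * t₂)) * σ + (Y * σ) * (t₁ * t₂) := by noncomm_ring
    _ = Y * σ + σ * (Y * (t₁ * t₂)) := by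
        have : (Y * σ) * (t₁ * t₂) = σ * (Y * (t₁ * t₂)) := by rw [hcomm, mul_assoc]
        rw [this, hYt]
    _ = Y * σ + σ * Y := by rw [hYt]
    _ = 0 := hYσ

end Cfsg.Agent.Lib.SLFpf.MatExt
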