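import Mathlib

/-!
A ring homomorphism out of `M₂(K)` from a scalar homomorphism and a pair of matrix units.
-/

set_option autoImplicit false
set_option linter.unusedSectionVars false
set_option linter.unusedSimpArgs false
set_option linter.unusedVariables false

open Matrix

namespace Cfsg.Agent.Lib.SLFpf.MatHom

variable {K : Type*} [Field K] {A : Type*} [Ring A]

/-- The data. -/
structure Units (C : K →+* A) (E F : A) : Prop where
  EE : E * E = 0
  FF : F * F = 0
  EF : E * F + F * E = 1
  CE : ∀ x, C x * E = E * C x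
  CF : ∀ x, C x * F = F * C x

variable {C : K →+* A} {E F : A} (U : Units C E F)

include U

lemma FE_eq : F * E = 1 - E * F := by
  have := U.EF
  rw [← this]; abel

lemma EF_eq : E * F = 1 - F * E := by
  have := U.EF
  rw [← this]; abel

lemma EF_EF : (E * F) * (E * F) = E * F := by
  calc (E * F) * (E * F) = E * (F * E) * F := by noncomm_ring
    _ = E * F - E * E * (F * F) := by rw [FE_eq U]; noncomm_ring
    _ = E * F := by rw [U.EE]; noncomm_ring

lemma EF_E : (E * F) * E = E := by
  calc (E * F) * E = E * (F * E) := by noncomm_ring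
    _ = E - E * E * F := by rw [FE_eq U]; noncomm_ring
    _ = E := by rw [U.EE]; noncomm_ring

lemma EF_F : (E * F) * F = 0 := by rw [mul_assoc, U.FF, mul_zero]

lemma EF_FE : (E * F) * (F * E) = 0 := by
  calc (E * F) * (F * E) = E * (F * F) * E := by noncomm_ring
    _ = 0 := by rw [U.FF]; noncomm_ring

lemma E_EF : E * (E * F) = 0 := by rw [← mul_assoc, U.EE, zero_mul]

lemma E_FE : E * (F * E) = E := by rw [← mul_assoc, EF_E U]

lemma F_EF : F * (E * F) = F := by
  calc F * (E * F) = (F * E) * F := by noncomm_ring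
    _ = F - E * F * F := by rw [FE_eq U]; noncomm_ring
    _ = F := by rw [mul_assoc, U.FF]; noncomm_ring

lemma F_FE : F * (F * E) = 0 := by rw [← mul_assoc, U.FF, zero_mul]

lemma FE_EF : (F * E) * (E * F) = 0 := by
  calc (F * E) * (E * F) = F * (E * E) * F := by noncomm_ring
    _ = 0 := by rw [U.EE]; noncomm_ring

lemma FE_E : (F * E) * E = 0 := by rw [mul_assoc, U.EE, mul_zero]

lemma FE_F : (F * E) * F = F := by rw [mul_assoc, F_EF U]

lemma FE_FE : (F * E) * (F * E) = F * E := by
  calc (F * E) * (F * E) = F * (E * F) * E := by noncomm_ring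
    _ = F * E - F * F * (E * E) := by rw [EF_eq U]; noncomm_ring
    _ = F * E := by rw [U.EE]; noncomm_ring

lemma pair (x y : K) (u v : A) (hu : C y * u = u * C y) :
    (C x * u) * (C y * v) = C (x * y) * (u * v) := by
  rw [map_mul]
  calc C x * u * (C y * v) = C x * (u * C y) * v := by noncomm_ring
    _ = C x * C y * (u * v) := by rw [← hu]; noncomm_ring

lemma CEF (y : K) : C y * (E * F) = (E * F) * C y := by
  rw [← mul_assoc, U.CE, mul_assoc, U.CF, mul_assoc]

lemma CFE (y : K) : C y * (F * E) = (F * E) * C y := by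
  rw [← mul_assoc, U.CF, mul_assoc, U.CE, mul_assoc]

omit U in
/-- The function. -/
def toFun (C : K →+* A) (E F : A) (M : Matrix (Fin 2) (Fin 2) K) : A :=
  C (M 0 0) * (E * F) + C (M 0 1) * E + C (M 1 0) * F + C (M 1 1) * (F * E)

/-- The ring homomorphism. -/
def hom : Matrix (Fin 2) (Fin 2) K →+* A where
  toFun := toFun C E F
  map_one' := by
    simp only [toFun, Matrix.one_apply_eq, Matrix.one_apply_ne, ne_eq, zero_ne_one, one_ne_zero,
      not_false_eq_true, map_one, map_zero, zero_mul, add_zero, one_mul, Fin.isValue]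
    exact U.EF
  map_zero' := by simp [toFun]
  map_add' := by
    intro M N
    simp only [toFun, Matrix.add_apply, map_add, add_mul]
    abel
  map_mul' := by
    intro M N
    have e00 : (M * N) 0 0 = M 0 0 * N 0 0 + M 0 1 * N 1 0 := by
      simp [Matrix.mul_apply, Fin.sum_univ_two]
    have e01 : (M * N) 0 1 = M 0 0 * N 0 1 + M 0 1 * N 1 1 := by
      simp [Matrix.mul_apply, Fin.sum_univ_two]
    have e10 : (M * N) 1 0 = M 1 0 * N 0 0 + M 1 1 * N 1 0 := by
      simp [Matrix.mul_apply, Fin.sum_univ_two]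
    have e11 : (M * N) 1 1 = M 1 0 * N 0 1 + M 1 1 * N 1 1 := by
      simp [Matrix.mul_apply, Fin.sum_univ_two]
    simp only [toFun, e00, e01, e10, e11, map_add, add_mul, mul_add]
    have p1 := fun x y (u v : A) (h : ∀ z, C z * u = u * C z) => pair U x y u v (h y)
    have hEF := CEF U
    have hFE := CFE U
    have hE := U.CE
    have hF := U.CF
    simp only [p1 _ _ _ _ hEF, p1 _ _ _ _ hFE, p1 _ _ _ _ hE, p1 _ _ _ _ hF, EF_EF U, EF_E U, EF_F U,
      EF_FE U, E_EF U, U.EE, E_FE U, F_EF U, U.FF, F_FE U, FE_EF U, FE_E U, FE_F U, FE_FE U,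
      mul_zero, map_mul]
    abel

lemma hom_apply (M : Matrix (Fin 2) (Fin 2) K) :
    hom U M = C (M 0 0) * (E * F) + C (M 0 1) * E + C (M 1 0) * F + C (M 1 1) * (F * E) := rfl

end Cfsg.Agent.Lib.SLFpf.MatHom
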