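import Cfsg.Agent.Lib.SLFpf.MatExt
import Cfsg.Agent.Lib.SLFpf.MatHom

/-!
The ring homomorphism on `M₂(K)` (see `MatExt`).
-/

set_option autoImplicit false
set_option linter.unusedSectionVars false
set_option linter.unusedSimpArgs false
set_option linter.unusedVariables false

open scoped MatrixGroups
open Matrix

namespace Cfsg.Agent.Lib.SLFpf.MatExt2

open Cfsg.Agent.Lib.SLFpf.Tv Cfsg.Agent.Lib.SLFpf.MatExt

variable {K : Type*} [Field K] [CharP K 2] [PerfectRing K 2] {A : Type*} [Ring A]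

/-- The square root. -/
noncomputable def rt : K ≃+* K := (frobeniusEquiv K 2).symm

lemma rt_mul_self (x : K) : rt x * rt x = x := by
  have h := (frobeniusEquiv K 2).apply_symm_apply x
  rw [frobeniusEquiv_apply, frobenius_def, pow_two] at h
  exact h

lemma rt_self_mul (x : K) : rt (x * x) = x := by
  have h := (frobeniusEquiv K 2).symm_apply_apply x
  rw [frobeniusEquiv_apply, frobenius_def, pow_two] at h
  exact h

variable {ρ : SL(2, K) →* A}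

/-- The upper root operator. -/
def e (ρ : SL(2, K) →* A) (a : K) : A := 1 + ρ (tv a 0)

/-- The lower root operator. -/
def f (ρ : SL(2, K) →* A) (b : K) : A := 1 + ρ (tv 0 b)

lemma e_zero_aux (H : Hyp ρ) : e ρ 0 = 0 := by
  unfold e; rw [tv_zero, map_one]; exact H.dbl 1

lemma f_zero_aux (H : Hyp ρ) : f ρ 0 = 0 := by
  unfold f; rw [tv_zero, map_one]; exact H.dbl 1

lemma t_e (H : Hyp ρ) (a : K) : ρ (tv a 0) = 1 + e ρ a := by
  unfold e; rw [← add_assoc, H.dbl, zero_add]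

lemma t_f (H : Hyp ρ) (b : K) : ρ (tv 0 b) = 1 + f ρ b := by
  unfold f; rw [← add_assoc, H.dbl, zero_add]

lemma e_self (H : Hyp ρ) (a : K) : e ρ a * e ρ a = 0 := by
  unfold e
  have h := t_sq (ρ := ρ) a 0
  calc (1 + ρ (tv a 0)) * (1 + ρ (tv a 0))
      = 1 + (ρ (tv a 0) + ρ (tv a 0)) + ρ (tv a 0) * ρ (tv a 0) := by noncomm_ring
    _ = 0 := by rw [H.dbl, h, add_zero]; exact H.dbl 1

lemma f_self (H : Hyp ρ) (a : K) : f ρ a * f ρ a = 0 := by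
  unfold f
  have h := t_sq (ρ := ρ) 0 a
  calc (1 + ρ (tv 0 a)) * (1 + ρ (tv 0 a))
      = 1 + (ρ (tv 0 a) + ρ (tv 0 a)) + ρ (tv 0 a) * ρ (tv 0 a) := by noncomm_ring
    _ = 0 := by rw [H.dbl, h, add_zero]; exact H.dbl 1

lemma e_mul_e (H : Hyp ρ) (a b : K) : e ρ a * e ρ b = 0 := by
  have h2 : (2 : K) = 0 := two_K
  by_cases ha : a = 0
  · rw [ha, e_zero_aux H, zero_mul]
  by_cases hb : b = 0
  · rw [hb, e_zero_aux H, mul_zero]
  by_cases hab : a = b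
  · rw [hab, e_self H]
  have hμ : a + b ≠ 0 := by
    intro h; apply hab; grind
  set μ := a + b with hμdef
  have hμi : μ * μ⁻¹ = 1 := mul_inv_cancel₀ hμ
  set κ := a * μ⁻¹ with hκ
  set r := rt κ with hr
  have hrr : r * r = κ := rt_mul_self κ
  have hκ0 : κ ≠ 0 := mul_ne_zero ha (inv_ne_zero hμ)
  have hr0 : r ≠ 0 := by
    intro h; apply hκ0; rw [← hrr, h, zero_mul]
  have hκ1 : κ ≠ 1 := by
    intro h
    have : a = μ := by
      calc a = a * (μ * μ⁻¹) := by rw [hμi, mul_one]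
        _ = κ * μ := by rw [hκ]; ring
        _ = μ := by rw [h, one_mul]
    apply hb; grind
  have hr1 : r ≠ 1 := by
    intro h; apply hκ1; rw [← hrr, h, one_mul]
  have hA := claimA H r hr0 hr1
  rw [hrr] at hA
  have k1 : dg μ hμ * tv κ 0 = tv a 0 * dg μ hμ := by
    rw [dg_mul_tv, mul_zero]
    congr 2
    rw [hκ]; grind
  have k2 : dg μ hμ * tv (κ + 1) 0 = tv b 0 * dg μ hμ := by
    rw [dg_mul_tv, mul_zero]
    congr 2
    rw [hκ]; grind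
  set D := ρ (dg μ hμ) with hD
  have l1 : D * ρ (tv κ 0) = ρ (tv a 0) * D := by
    rw [hD, ← map_mul, ← map_mul, k1]
  have l2 : D * ρ (tv (κ + 1) 0) = ρ (tv b 0) * D := by
    rw [hD, ← map_mul, ← map_mul, k2]
  have hDi : D * ρ (dg μ hμ)⁻¹ = 1 := by
    rw [hD, ← map_mul, mul_inv_cancel, map_one]
  have hz : e ρ a * e ρ b * D = 0 := by
    unfold e
    calc (1 + ρ (tv a 0)) * (1 + ρ (tv b 0)) * D
        = (1 + ρ (tv a 0)) * (D + ρ (tv b 0) * D) := by noncomm_ring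
      _ = (D + ρ (tv a 0) * D) * (1 + ρ (tv (κ + 1) 0)) := by rw [← l2]; noncomm_ring
      _ = D * ((1 + ρ (tv κ 0)) * (1 + ρ (tv (κ + 1) 0))) := by rw [← l1]; noncomm_ring
      _ = 0 := by rw [hA, mul_zero]
  calc e ρ a * e ρ b = e ρ a * e ρ b * (D * ρ (dg μ hμ)⁻¹) := by rw [hDi, mul_one]
    _ = (e ρ a * e ρ b * D) * ρ (dg μ hμ)⁻¹ := by noncomm_ring
    _ = 0 := by rw [hz, zero_mul]

lemma w_sq (H : Hyp ρ) : ρ (tv 1 1) * ρ (tv 1 1) = 1 := t_sq 1 1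

lemma w_e_w (H : Hyp ρ) (a : K) : ρ (tv 1 1) * e ρ a * ρ (tv 1 1) = f ρ a := by
  unfold e f
  have h := w_sq H
  have h3 : ρ (tv 1 1) * ρ (tv a 0) * ρ (tv 1 1) = ρ (tv 0 a) := by
    rw [← map_mul, ← map_mul, tv_swap]
  calc ρ (tv 1 1) * (1 + ρ (tv a 0)) * ρ (tv 1 1)
      = ρ (tv 1 1) * ρ (tv 1 1) + ρ (tv 1 1) * ρ (tv a 0) * ρ (tv 1 1) := by noncomm_ring
    _ = 1 + ρ (tv 0 a) := by rw [h, h3]

lemma w_f_w (H : Hyp ρ) (a : K) : ρ (tv 1 1) * f ρ a * ρ (tv 1 1) = e ρ a := by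
  unfold e f
  have h := w_sq H
  have h3 : ρ (tv 1 1) * ρ (tv 0 a) * ρ (tv 1 1) = ρ (tv a 0) := by
    rw [← map_mul, ← map_mul, tv_swap]
  calc ρ (tv 1 1) * (1 + ρ (tv 0 a)) * ρ (tv 1 1)
      = ρ (tv 1 1) * ρ (tv 1 1) + ρ (tv 1 1) * ρ (tv 0 a) * ρ (tv 1 1) := by noncomm_ring
    _ = 1 + ρ (tv a 0) := by rw [h, h3]

lemma f_mul_f (H : Hyp ρ) (a b : K) : f ρ a * f ρ b = 0 := by
  have h := w_sq H
  rw [← w_e_w H a, ← w_e_w H b]
  set w := ρ (tv 1 1)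
  calc w * e ρ a * w * (w * e ρ b * w) = w * e ρ a * (w * w) * e ρ b * w := by noncomm_ring
    _ = w * (e ρ a * e ρ b) * w := by rw [h]; noncomm_ring
    _ = 0 := by rw [e_mul_e H]; noncomm_ring

lemma e_add (H : Hyp ρ) (a a' : K) : e ρ (a + a') = e ρ a + e ρ a' := by
  have h1 : e ρ (a + a') = 1 + ρ (tv a 0) * ρ (tv a' 0) := by
    unfold e; rw [tv_add_right, map_mul]
  rw [h1, t_e H, t_e H]
  have h3 := e_mul_e H a a'
  calc 1 + (1 + e ρ a) * (1 + e ρ a') = (1 + 1) + e ρ a + e ρ a' + e ρ a * e ρ a' := by noncomm_ring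
    _ = e ρ a + e ρ a' := by rw [H.dbl, h3]; abel

lemma f_add (H : Hyp ρ) (a a' : K) : f ρ (a + a') = f ρ a + f ρ a' := by
  have h1 : f ρ (a + a') = 1 + ρ (tv 0 a) * ρ (tv 0 a') := by
    unfold f; rw [tv_add_right', map_mul]
  rw [h1, t_f H, t_f H]
  have h3 := f_mul_f H a a'
  calc 1 + (1 + f ρ a) * (1 + f ρ a') = (1 + 1) + f ρ a + f ρ a' + f ρ a * f ρ a' := by noncomm_ring
    _ = f ρ a + f ρ a' := by rw [H.dbl, h3]; abel

lemma e_f_anti (H : Hyp ρ) (a b : K) (h : a * b = 1) : e ρ a * f ρ b + f ρ b * e ρ a = 1 := by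
  have h1 := anti H a 0 0 b (by rw [h]; ring)
  unfold e f
  calc (1 + ρ (tv a 0)) * (1 + ρ (tv 0 b)) + (1 + ρ (tv 0 b)) * (1 + ρ (tv a 0))
      = (1 + 1) + (ρ (tv a 0) + ρ (tv a 0)) + (ρ (tv 0 b) + ρ (tv 0 b)) +
          (ρ (tv a 0) * ρ (tv 0 b) + ρ (tv 0 b) * ρ (tv a 0)) := by noncomm_ring
    _ = 1 := by rw [h1, H.dbl 1, H.dbl (ρ (tv a 0)), H.dbl (ρ (tv 0 b))]; abel

/-- The scalars. -/
def c (ρ : SL(2, K) →* A) (a : K) : A := e ρ a * f ρ 1 + f ρ 1 * e ρ a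

lemma EF_one (H : Hyp ρ) : e ρ 1 * f ρ 1 + f ρ 1 * e ρ 1 = 1 := e_f_anti H 1 1 (one_mul 1)

lemma FE_char (H : Hyp ρ) : f ρ 1 * e ρ 1 = 1 + e ρ 1 * f ρ 1 := by
  apply H.eq_of_add
  rw [← EF_one H]
  have := H.dbl (e ρ 1 * f ρ 1)
  have h2 := H.dbl (f ρ 1 * e ρ 1)
  calc f ρ 1 * e ρ 1 + (e ρ 1 * f ρ 1 + f ρ 1 * e ρ 1 + e ρ 1 * f ρ 1)
      = (f ρ 1 * e ρ 1 + f ρ 1 * e ρ 1) + (e ρ 1 * f ρ 1 + e ρ 1 * f ρ 1) := by abel
    _ = 0 := by rw [this, h2, add_zero]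

lemma EF_char (H : Hyp ρ) : e ρ 1 * f ρ 1 = 1 + f ρ 1 * e ρ 1 := by
  apply H.eq_of_add
  rw [← EF_one H]
  have := H.dbl (e ρ 1 * f ρ 1)
  have h2 := H.dbl (f ρ 1 * e ρ 1)
  calc e ρ 1 * f ρ 1 + (e ρ 1 * f ρ 1 + f ρ 1 * e ρ 1 + f ρ 1 * e ρ 1)
      = (f ρ 1 * e ρ 1 + f ρ 1 * e ρ 1) + (e ρ 1 * f ρ 1 + e ρ 1 * f ρ 1) := by abel
    _ = 0 := by rw [this, h2, add_zero]

lemma c_E (H : Hyp ρ) (a : K) : c ρ a * e ρ 1 = e ρ a := by
  unfold c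
  calc (e ρ a * f ρ 1 + f ρ 1 * e ρ a) * e ρ 1
      = e ρ a * (f ρ 1 * e ρ 1) + f ρ 1 * (e ρ a * e ρ 1) := by noncomm_ring
    _ = e ρ a * (1 + e ρ 1 * f ρ 1) := by rw [FE_char H, e_mul_e H a 1]; noncomm_ring
    _ = e ρ a + (e ρ a * e ρ 1) * f ρ 1 := by noncomm_ring
    _ = e ρ a := by rw [e_mul_e H a 1]; noncomm_ring

lemma E_c (H : Hyp ρ) (a : K) : e ρ 1 * c ρ a = e ρ a := by
  unfold c
  calc e ρ 1 * (e ρ a * f ρ 1 + f ρ 1 * e ρ a)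
      = (e ρ 1 * e ρ a) * f ρ 1 + (e ρ 1 * f ρ 1) * e ρ a := by noncomm_ring
    _ = (1 + f ρ 1 * e ρ 1) * e ρ a := by rw [EF_char H, e_mul_e H 1 a]; noncomm_ring
    _ = e ρ a + f ρ 1 * (e ρ 1 * e ρ a) := by noncomm_ring
    _ = e ρ a := by rw [e_mul_e H 1 a]; noncomm_ring

lemma c_comm_E (H : Hyp ρ) (a : K) : c ρ a * e ρ 1 = e ρ 1 * c ρ a := by rw [c_E H, E_c H]

lemma c_comm_F (H : Hyp ρ) (a : K) : c ρ a * f ρ 1 = f ρ 1 * c ρ a := by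
  unfold c
  have h := f_self H 1
  calc (e ρ a * f ρ 1 + f ρ 1 * e ρ a) * f ρ 1
      = e ρ a * (f ρ 1 * f ρ 1) + f ρ 1 * e ρ a * f ρ 1 := by noncomm_ring
    _ = f ρ 1 * e ρ a * f ρ 1 + (f ρ 1 * f ρ 1) * e ρ a := by rw [h]; noncomm_ring
    _ = f ρ 1 * (e ρ a * f ρ 1 + f ρ 1 * e ρ a) := by noncomm_ring

lemma w_eq (H : Hyp ρ) : ρ (tv 1 1) = e ρ 1 + f ρ 1 := by
  have h := t_add H 1 0 0 1 (by ring)
  rw [add_zero, zero_add, t_e H, t_f H] at h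
  rw [h]
  have := H.dbl 1
  calc 1 + e ρ 1 + (1 + f ρ 1) = (1 + 1) + (e ρ 1 + f ρ 1) := by abel
    _ = e ρ 1 + f ρ 1 := by rw [this, zero_add]

lemma c_comm_w (H : Hyp ρ) (a : K) : c ρ a * ρ (tv 1 1) = ρ (tv 1 1) * c ρ a := by
  rw [w_eq H, mul_add, add_mul, c_comm_E H, c_comm_F H]

lemma w_c_w (H : Hyp ρ) (a : K) :
    ρ (tv 1 1) * c ρ a * ρ (tv 1 1) = f ρ a * e ρ 1 + e ρ 1 * f ρ a := by
  have h := w_sq H
  have h1 := w_e_w H a
  have h2 := w_f_w H 1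
  unfold c
  rw [← h1, ← h2]
  set w := ρ (tv 1 1)
  calc w * (e ρ a * f ρ 1 + f ρ 1 * e ρ a) * w
      = w * e ρ a * 1 * f ρ 1 * w + w * f ρ 1 * 1 * e ρ a * w := by noncomm_ring
    _ = w * e ρ a * (w * w) * f ρ 1 * w + w * f ρ 1 * (w * w) * e ρ a * w := by rw [h]
    _ = _ := by noncomm_ring

lemma f_eq (H : Hyp ρ) (b : K) : f ρ b = c ρ b * f ρ 1 := by
  have h1 : c ρ b = f ρ b * e ρ 1 + e ρ 1 * f ρ b := by
    rw [← w_c_w H]
    have h := w_sq H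
    have := c_comm_w H b
    calc c ρ b = c ρ b * (ρ (tv 1 1) * ρ (tv 1 1)) := by rw [h, mul_one]
      _ = (c ρ b * ρ (tv 1 1)) * ρ (tv 1 1) := by noncomm_ring
      _ = ρ (tv 1 1) * c ρ b * ρ (tv 1 1) := by rw [this]
  rw [h1]
  calc f ρ b = f ρ b * (1 + f ρ 1 * e ρ 1 + f ρ 1 * e ρ 1) := by
        rw [add_assoc, H.dbl (f ρ 1 * e ρ 1), add_zero, mul_one]
    _ = f ρ b * (e ρ 1 * f ρ 1 + f ρ 1 * e ρ 1) := by rw [← EF_char H]
    _ = f ρ b * e ρ 1 * f ρ 1 + (f ρ b * f ρ 1) * e ρ 1 := by noncomm_ring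
    _ = (f ρ b * e ρ 1 + e ρ 1 * f ρ b) * f ρ 1 := by
        rw [f_mul_f H]
        calc f ρ b * e ρ 1 * f ρ 1 + 0 * e ρ 1
            = f ρ b * e ρ 1 * f ρ 1 + e ρ 1 * (f ρ b * f ρ 1) := by rw [f_mul_f H]; noncomm_ring
          _ = _ := by noncomm_ring

lemma c_add (H : Hyp ρ) (a a' : K) : c ρ (a + a') = c ρ a + c ρ a' := by
  unfold c; rw [e_add H]; noncomm_ring

lemma c_zero (H : Hyp ρ) : c ρ 0 = 0 := by
  unfold c; rw [e_zero_aux H]; noncomm_ring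

lemma c_one (H : Hyp ρ) : c ρ 1 = 1 := EF_one H

/-- The relation coming from the torus. -/
lemma c_mul_aux (H : Hyp ρ) (a b d : K) (ha : a ≠ 0) (hb : b ≠ 0) (hd : d ≠ 0) :
    c ρ a * c ρ b⁻¹ = c ρ (a * d) * c ρ (b * d)⁻¹ := by
  have hw : ∀ x : K, x ≠ 0 → ρ (tv x x⁻¹) = e ρ x + f ρ x⁻¹ := by
    intro x hx
    have h := t_add H x 0 0 x⁻¹ (by rw [mul_inv_cancel₀ hx]; ring)
    rw [add_zero, zero_add, t_e H, t_f H] at h
    rw [h]
    have := H.dbl 1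
    calc 1 + e ρ x + (1 + f ρ x⁻¹) = (1 + 1) + (e ρ x + f ρ x⁻¹) := by abel
      _ = e ρ x + f ρ x⁻¹ := by rw [this, zero_add]
  have h1 := congrArg ρ (tv_mul_tv_diag a b d ha hb hd)
  rw [map_mul, map_mul, hw a ha, hw b hb, hw _ (mul_ne_zero ha hd), hw _ (mul_ne_zero hb hd)] at h1
  -- expansion
  have exp : ∀ x y : K, (e ρ x + f ρ x⁻¹) * (e ρ y + f ρ y⁻¹) =
      c ρ x * c ρ y⁻¹ * (e ρ 1 * f ρ 1) + c ρ x⁻¹ * c ρ y * (f ρ 1 * e ρ 1) := by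
    intro x y
    have k1 : e ρ x * f ρ y⁻¹ = c ρ x * c ρ y⁻¹ * (e ρ 1 * f ρ 1) := by
      rw [f_eq H y⁻¹, ← c_E H x]
      calc c ρ x * e ρ 1 * (c ρ y⁻¹ * f ρ 1) = c ρ x * (e ρ 1 * c ρ y⁻¹) * f ρ 1 := by noncomm_ring
        _ = c ρ x * (c ρ y⁻¹ * e ρ 1) * f ρ 1 := by rw [c_comm_E H]
        _ = _ := by noncomm_ring
    have k2 : f ρ x⁻¹ * e ρ y = c ρ x⁻¹ * c ρ y * (f ρ 1 * e ρ 1) := by
      rw [f_eq H x⁻¹, ← c_E H y]
      calc c ρ x⁻¹ * f ρ 1 * (c ρ y * e ρ 1) = c ρ x⁻¹ * (f ρ 1 * c ρ y) * e ρ 1 := by noncomm_ring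
        _ = c ρ x⁻¹ * (c ρ y * f ρ 1) * e ρ 1 := by rw [c_comm_F H]
        _ = _ := by noncomm_ring
    rw [add_mul, mul_add, mul_add, e_mul_e H, f_mul_f H, k1, k2]
    abel
  have h1' := h1
  rw [exp a b, exp (a * d) (b * d)] at h1'
  -- multiply on the right by `E`
  have hE := e_self H 1
  have hEFE : (e ρ 1 * f ρ 1) * e ρ 1 = e ρ 1 := by
    rw [EF_char H, add_mul, one_mul, mul_assoc, hE, mul_zero, add_zero]
  have hFEE : (f ρ 1 * e ρ 1) * e ρ 1 = 0 := by rw [mul_assoc, hE, mul_zero]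
  have h2 := congrArg (· * e ρ 1) h1'
  simp only [add_mul, mul_assoc, hEFE, hFEE, mul_zero, add_zero] at h2
  -- h2 : x * (y * E) = x' * (y' * E)
  have h3 : c ρ a * c ρ b⁻¹ * e ρ 1 = c ρ (a * d) * c ρ (b * d)⁻¹ * e ρ 1 := by
    simpa only [mul_assoc] using h2
  set p := c ρ a * c ρ b⁻¹ with hp
  set q := c ρ (a * d) * c ρ (b * d)⁻¹ with hq
  have hpF : f ρ 1 * p = p * f ρ 1 := by
    rw [hp, ← mul_assoc, ← c_comm_F H, mul_assoc, ← c_comm_F H, ← mul_assoc]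
  have hqF : f ρ 1 * q = q * f ρ 1 := by
    rw [hq, ← mul_assoc, ← c_comm_F H, mul_assoc, ← c_comm_F H, ← mul_assoc]
  have h4 : p * (e ρ 1 * f ρ 1) = q * (e ρ 1 * f ρ 1) := by
    rw [← mul_assoc, h3, mul_assoc]
  have h5 : p * (f ρ 1 * e ρ 1) = q * (f ρ 1 * e ρ 1) := by
    calc p * (f ρ 1 * e ρ 1) = (p * f ρ 1) * e ρ 1 := by noncomm_ring
      _ = f ρ 1 * (p * e ρ 1) := by rw [← hpF, mul_assoc]
      _ = f ρ 1 * (q * e ρ 1) := by rw [h3]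
      _ = (q * f ρ 1) * e ρ 1 := by rw [← mul_assoc, hqF]
      _ = _ := by noncomm_ring
  calc p = p * (e ρ 1 * f ρ 1 + f ρ 1 * e ρ 1) := by rw [EF_one H, mul_one]
    _ = p * (e ρ 1 * f ρ 1) + p * (f ρ 1 * e ρ 1) := by noncomm_ring
    _ = q * (e ρ 1 * f ρ 1) + q * (f ρ 1 * e ρ 1) := by rw [h4, h5]
    _ = q * (e ρ 1 * f ρ 1 + f ρ 1 * e ρ 1) := by noncomm_ring
    _ = q := by rw [EF_one H, mul_one]

lemma c_mul (H : Hyp ρ) (a b : K) : c ρ (a * b) = c ρ a * c ρ b := by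
  by_cases ha : a = 0
  · rw [ha, zero_mul, c_zero H, zero_mul]
  by_cases hb : b = 0
  · rw [hb, mul_zero, c_zero H, mul_zero]
  have h := c_mul_aux H a b⁻¹ b ha (inv_ne_zero hb) hb
  rw [inv_inv, inv_mul_cancel₀ hb, inv_one, c_one H, mul_one] at h
  exact h.symm

/-- The scalar ring homomorphism, precomposed with the square root so that the matrix
scalars act correctly. -/
noncomputable def cHom (H : Hyp ρ) : K →+* A where
  toFun x := c ρ (rt x)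
  map_one' := by rw [map_one, c_one H]
  map_zero' := by rw [map_zero, c_zero H]
  map_add' x y := by rw [map_add, c_add H]
  map_mul' x y := by rw [map_mul, c_mul H]

lemma cHom_apply (H : Hyp ρ) (x : K) : cHom H x = c ρ (rt x) := rfl

lemma units (H : Hyp ρ) : MatHom.Units (cHom H) (e ρ 1) (f ρ 1) where
  EE := e_self H 1
  FF := f_self H 1
  EF := EF_one H
  CE x := c_comm_E H _
  CF x := c_comm_F H _

/-- The main theorem: the homomorphism extends to a ring homomorphism on `M₂(K)`. -/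
theorem exists_ringHom (H : Hyp ρ) :
    ∃ Ψ : Matrix (Fin 2) (Fin 2) K →+* A, ∀ g : SL(2, K), Ψ g.1 = ρ g := by
  have h2K : (2 : K) = 0 := two_K
  set Ψ := MatHom.hom (units H) with hΨ
  refine ⟨Ψ, ?_⟩
  have hU : ∀ a : K, Ψ (tv a 0).1 = ρ (tv a 0) := by
    intro a
    rw [hΨ, MatHom.hom_apply]
    simp only [tv_00, tv_01, tv_10, tv_11, mul_zero, add_zero, map_one, map_zero, zero_mul,
      one_mul, cHom_apply, rt_self_mul]
    rw [t_e H, c_E H]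
    have := EF_one H
    rw [← this]
    abel
  have hL : ∀ b : K, Ψ (tv 0 b).1 = ρ (tv 0 b) := by
    intro b
    rw [hΨ, MatHom.hom_apply]
    simp only [tv_00, tv_01, tv_10, tv_11, zero_mul, add_zero, map_one, map_zero,
      one_mul, cHom_apply, rt_self_mul, zero_add]
    rw [t_f H, ← f_eq H]
    have := EF_one H
    rw [← this]
    abel
  have hmul : ∀ x y : SL(2, K), Ψ x.1 = ρ x → Ψ y.1 = ρ y → Ψ (x * y).1 = ρ (x * y) := by
    intro x y hx hy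
    rw [map_mul ρ, ← hx, ← hy, ← map_mul]
    rfl
  -- the generic cell
  have hcell : ∀ g : SL(2, K), g.1 1 0 ≠ 0 → Ψ g.1 = ρ g := by
    intro g hs
    set s := g.1 1 0 with hsdef
    have hsi : s * s⁻¹ = 1 := mul_inv_cancel₀ hs
    have hdet := det_sl g
    set α := rt ((g.1 0 0 + 1) * s⁻¹) with hα
    set β := rt ((g.1 1 1 + 1) * s⁻¹) with hβ
    set γ := rt s with hγ
    have hαα : α * α = (g.1 0 0 + 1) * s⁻¹ := rt_mul_self _
    have hββ : β * β = (g.1 1 1 + 1) * s⁻¹ := rt_mul_self _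
    have hγγ : γ * γ = s := rt_mul_self _
    have hg : g = tv α 0 * tv 0 γ * tv β 0 := by
      apply sl_ext
      · simp only [mul_00, mul_01, mul_10, mul_11, tv_00, tv_01, tv_10, tv_11, zero_mul, mul_zero,
          add_zero, hαα, hββ, hγγ]
        grind
      · simp only [mul_00, mul_01, mul_10, mul_11, tv_00, tv_01, tv_10, tv_11, zero_mul, mul_zero,
          add_zero, hαα, hββ, hγγ]
        grind
      · simp only [mul_00, mul_01, mul_10, mul_11, tv_00, tv_01, tv_10, tv_11, zero_mul, mul_zero,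
          add_zero, hαα, hββ, hγγ]
        grind
      · simp only [mul_00, mul_01, mul_10, mul_11, tv_00, tv_01, tv_10, tv_11, zero_mul, mul_zero,
          add_zero, hαα, hββ, hγγ]
        grind
    rw [hg]
    exact hmul _ _ (hmul _ _ (hU α) (hL γ)) (hU β)
  intro g
  by_cases hs : g.1 1 0 = 0
  · -- the Borel subgroup
    have hdet := det_sl g
    have hp : g.1 0 0 ≠ 0 := by
      intro h
      rw [h, hs] at hdet
      simp at hdet
    have h1 : tv 0 1 * (tv 0 1 * g) = g := by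
      rw [← mul_assoc, tv_mul_self, one_mul]
    rw [← h1]
    apply hmul _ _ (hL 1)
    apply hcell
    simp only [mul_10, tv_10, tv_11]
    simp only [zero_mul, hs]
    simpa using hp
  · exact hcell g hs

end Cfsg.Agent.Lib.SLFpf.MatExt2
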