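import Cfsg.Agent.Lib.SLFpf.BVanish

/-!
Elements of trace one in `SL₂(K)`, `K` perfect of characteristic two, and the representations of
`SL₂(K)` arising from a group with a normal subgroup `Q` and quotient `SL₂(K)`.
-/

set_option autoImplicit false
set_option linter.unusedSectionVars false
set_option linter.unusedSimpArgs false
set_option linter.unusedVariables false

open scoped MatrixGroups
open Matrix

namespace Cfsg.Agent.Lib.SLFpf.SecRep

open Cfsg.Agent.Lib.SLFpf.Tv Cfsg.Agent.Lib.SLFpf.MatExt Cfsg.Agent.Lib.SLFpf.MatExt2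
open Cfsg.Agent.Lib.SLFpf.BVanish

variable {K : Type*} [Field K] [CharP K 2]

lemma det_char (z : SL(2, K)) : z.1 0 0 * z.1 1 1 + z.1 0 1 * z.1 1 0 = 1 := by
  have h2 : (2 : K) = 0 := two_K
  have := det_sl z
  grind

/-- `z² = z + 1` for trace one: equivalently `z⁻¹ = z * z`. -/
lemma trace_one_inv (z : SL(2, K)) (hz : z.1 0 0 + z.1 1 1 = 1) : z * z * z = 1 := by
  have h2 : (2 : K) = 0 := two_K
  have hd := det_char z
  apply sl_ext <;> simp only [mul_00, mul_01, mul_10, mul_11, one_00, one_01, one_10, one_11] <;> grind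

/-- An element of order three has trace one. -/
lemma trace_of_order_three (z : SL(2, K)) (h3 : z * z * z = 1) (h1 : z ≠ 1) :
    z.1 0 0 + z.1 1 1 = 1 := by
  have h2 : (2 : K) = 0 := two_K
  have hd := det_char z
  set p := z.1 0 0 with hp
  set r := z.1 0 1 with hr
  set s := z.1 1 0 with hs
  set t := z.1 1 1 with ht
  have e00 := congrArg (fun x : SL(2, K) => x.1 0 0) h3
  have e01 := congrArg (fun x : SL(2, K) => x.1 0 1) h3
  have e10 := congrArg (fun x : SL(2, K) => x.1 1 0) h3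
  have e11 := congrArg (fun x : SL(2, K) => x.1 1 1) h3
  simp only [mul_00, mul_01, mul_10, mul_11, one_00, one_01, one_10, one_11, ← hp, ← hr, ← hs, ← ht]
    at e00 e01 e10 e11
  by_contra htr
  have hne : (p + t) * (p + t) + 1 ≠ 0 := by
    intro h
    have : (p + t + 1) * (p + t + 1) = 0 := by grind
    have h5 : p + t + 1 = 0 := by simpa using this
    apply htr
    grind
  have hr0 : r = 0 := by
    have : ((p + t) * (p + t) + 1) * r = 0 := by grind
    exact (mul_eq_zero.1 this).resolve_left hne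
  have hs0 : s = 0 := by
    have : ((p + t) * (p + t) + 1) * s = 0 := by grind
    exact (mul_eq_zero.1 this).resolve_left hne
  have hpt : p * t = 1 := by
    rw [hr0] at hd; grind
  have hpe : p * p * p = 1 := by rw [hr0] at e00; grind
  have hte : t * t * t = 1 := by rw [hs0] at e11; grind
  have hp1 : p = 1 := by
    -- `p³ = 1`, `pt = 1`, `t³ = 1`; scalar elements: the equation forces `p = t`
    have e : p * p = t := by
      have : p * p * (p * t) = t := by
        calc p * p * (p * t) = (p * p * p) * t := by ring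
          _ = t := by rw [hpe, one_mul]
      rwa [hpt, mul_one] at this
    -- from the off-diagonal `r = s = 0` the trace relation gives nothing, use non-trace-one
    -- `z` is diagonal with `z³ = 1`, trace not one: `p + t ≠ 1`
    have h6 : p * p + p + 1 = 0 ∨ p = 1 := by
      have : (p + 1) * (p * p + p + 1) = 0 := by grind
      rcases mul_eq_zero.1 this with h | h
      · right; grind
      · left; exact h
    rcases h6 with h | h
    · exfalso
      apply htr
      grind
    · exact h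
  apply h1
  apply sl_ext
  · rw [one_00]; exact hp1
  · rw [one_01]; exact hr0
  · rw [one_10]; exact hs0
  · rw [one_11]; rw [hp1, one_mul] at hpt; exact hpt

variable [PerfectRing K 2]

/-- The base element of trace one. -/
def c₀ : SL(2, K) := slMk 0 1 1 1 (by
  have h2 : (2 : K) = 0 := two_K
  grind)

lemma conj_c₀ (z : SL(2, K)) (hz : z.1 0 0 + z.1 1 1 = 1) : ∃ h : SL(2, K), h * c₀ = z * h := by
  have h2 : (2 : K) = 0 := two_K
  have hd := det_char z
  set p := z.1 0 0 with hp
  set r := z.1 0 1 with hr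
  set s := z.1 1 0 with hs
  set t := z.1 1 1 with ht
  -- a vector with determinant one
  have hv : ∃ v₀ v₁ : K, s * v₀ * v₀ + v₀ * v₁ + r * v₁ * v₁ = 1 := by
    have key : ∃ v₀ v₁ : K, s * v₀ * v₀ + v₀ * v₁ + r * v₁ * v₁ ≠ 0 := by
      by_cases h1 : s = 0
      · by_cases h3 : r = 0
        · refine ⟨1, 1, ?_⟩
          rw [h1, h3]; simp
        · refine ⟨0, 1, ?_⟩
          simpa using h3
      · refine ⟨1, 0, ?_⟩
        simpa using h1
    obtain ⟨v₀, v₁, hδ⟩ := key
    set δ := s * v₀ * v₀ + v₀ * v₁ + r * v₁ * v₁ with hδdef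
    set μ := rt δ with hμ
    have hμμ : μ * μ = δ := rt_mul_self δ
    have hμ0 : μ ≠ 0 := by
      intro h; apply hδ; rw [← hμμ, h, zero_mul]
    refine ⟨v₀ * μ⁻¹, v₁ * μ⁻¹, ?_⟩
    have : s * (v₀ * μ⁻¹) * (v₀ * μ⁻¹) + v₀ * μ⁻¹ * (v₁ * μ⁻¹) + r * (v₁ * μ⁻¹) * (v₁ * μ⁻¹) =
        δ * (μ⁻¹ * μ⁻¹) := by rw [hδdef]; ring
    rw [this, ← hμμ]
    field_simp
  obtain ⟨v₀, v₁, hv⟩ := hv
  refine ⟨slMk v₀ (p * v₀ + r * v₁) v₁ (s * v₀ + t * v₁) (by grind), ?_⟩
  apply sl_ext <;> simp only [mul_00, mul_01, mul_10, mul_11, slMk_00, slMk_01, slMk_10, slMk_11,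
    c₀, ← hp, ← hr, ← hs, ← ht] <;> grind

lemma trace_one_conj (z z' : SL(2, K)) (hz : z.1 0 0 + z.1 1 1 = 1)
    (hz' : z'.1 0 0 + z'.1 1 1 = 1) : ∃ h : SL(2, K), z' = h * z * h⁻¹ := by
  obtain ⟨h₁, e₁⟩ := conj_c₀ z hz
  obtain ⟨h₂, e₂⟩ := conj_c₀ z' hz'
  refine ⟨h₂ * h₁⁻¹, ?_⟩
  have e₃ : z = h₁ * c₀ * h₁⁻¹ := by rw [e₁]; group
  have e₄ : z' = h₂ * c₀ * h₂⁻¹ := by rw [e₂]; group
  rw [e₃, e₄]; group

/-- The set-up: a group with normal subgroup `Q` and quotient `SL₂(K)`, and an element `x` acting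
without fixed points on `Q`. -/
structure Setup {G : Type*} [Group G] (Q : Subgroup G) (π : G →* SL(2, K)) (x : G) : Prop where
  surj : Function.Surjective π
  ker_iff : ∀ g, π g = 1 ↔ g ∈ Q
  x3 : x ^ 3 = 1
  xne : π x ≠ 1
  fix : ∀ q ∈ Q, x * q * x⁻¹ = q → q = 1

variable {G : Type*} [Group G] {Q : Subgroup G} {π : G →* SL(2, K)} {x : G}

lemma Setup.trace_x (S : Setup Q π x) : (π x).1 0 0 + (π x).1 1 1 = 1 := by
  apply trace_of_order_three _ _ S.xne
  rw [← map_mul, ← map_mul]
  have : x * x * x = x ^ 3 := by rw [pow_succ, pow_two]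
  rw [this, S.x3, map_one]

/-- **Representations on sections.** -/
theorem Setup.rep (S : Setup Q π x) {M : Type*} [AddCommGroup M] (act : G →* AddMonoid.End M)
    (hQ : ∀ q ∈ Q, act q = 1) (hx : ∀ m, act x m = m → m = 0) :
    ∃ ρ : SL(2, K) →* AddMonoid.End M, (∀ g, ρ (π g) = act g) ∧
      ∀ z : SL(2, K), z.1 0 0 + z.1 1 1 = 1 → 1 + ρ z + ρ z⁻¹ = 0 := by
  have hdep : ∀ g g' : G, π g = π g' → act g = act g' := by
    intro g g' h
    have h1 : g⁻¹ * g' ∈ Q := by
      rw [← S.ker_iff, map_mul, map_inv, h, inv_mul_cancel]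
    have h2 := hQ _ h1
    have h3 : g' = g * (g⁻¹ * g') := by group
    rw [h3, map_mul, h2, mul_one]
  set l := Function.surjInv S.surj with hl
  have hl' : ∀ z, π (l z) = z := Function.surjInv_eq S.surj
  let ρ : SL(2, K) →* AddMonoid.End M :=
    { toFun := fun z => act (l z)
      map_one' := by
        have := hdep (l 1) 1 (by rw [hl', map_one])
        rw [this, map_one]
      map_mul' := by
        intro a b
        have := hdep (l (a * b)) (l a * l b) (by rw [hl', map_mul, hl', hl'])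
        rw [this, map_mul] }
  have hρ : ∀ g, ρ (π g) = act g := fun g => hdep _ _ (hl' _)
  refine ⟨ρ, hρ, ?_⟩
  intro z hz
  obtain ⟨h₀, e⟩ := trace_one_conj (π x) z S.trace_x hz
  obtain ⟨h, rfl⟩ := S.surj h₀
  have hz3 : z * z * z = 1 := trace_one_inv z hz
  have hzi : z⁻¹ = z * z := by
    rw [inv_eq_iff_mul_eq_one]
    rw [mul_assoc] at hz3
    exact mul_assoc z z z ▸ hz3
  have e2 : ρ z = act h * act x * act h⁻¹ := by
    rw [e, ← map_inv, ← map_mul, ← map_mul, hρ, map_mul, map_mul]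
  have hinv : act h⁻¹ * act h = 1 := by rw [← map_mul, inv_mul_cancel, map_one]
  have hinv' : act h * act h⁻¹ = 1 := by rw [← map_mul, mul_inv_cancel, map_one]
  ext m
  set f := ρ z with hf
  have hf3 : f (f (f m)) = m := by
    have : (f * f * f) m = m := by
      rw [hf, ← map_mul, ← map_mul, hz3, map_one]; rfl
    exact this
  have hfi : ρ z⁻¹ m = f (f m) := by
    rw [hzi, map_mul]; rfl
  change m + f m + ρ z⁻¹ m = 0
  rw [hfi]
  set y := m + f m + f (f m) with hy
  have hfy : f y = y := by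
    rw [hy, map_add, map_add, hf3]; abel
  -- transport to `x`
  have h1 : act x (act h⁻¹ y) = act h⁻¹ y := by
    have e3 : f y = act h (act x (act h⁻¹ y)) := by rw [e2]; rfl
    have e4 : act h⁻¹ (act h (act x (act h⁻¹ y))) = act x (act h⁻¹ y) := by
      change (act h⁻¹ * act h) _ = _
      rw [hinv]; rfl
    rw [← e4, ← e3, hfy]
  have h3 := hx _ h1
  have e5 : y = act h (act h⁻¹ y) := by
    change y = (act h * act h⁻¹) y
    rw [hinv']; rfl
  rw [e5, h3, map_zero]

end Cfsg.Agent.Lib.SLFpf.SecRep
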