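import Mathlib

/-!
Transvection coordinates on `SL₂(K)`, `K` a field of characteristic two: the involution `tv a b`
is `y ↦ y + ω(y, (a,b)) (a,b)`.
-/

set_option autoImplicit false
set_option linter.unusedSectionVars false
set_option linter.unusedSimpArgs false

open scoped MatrixGroups
open Matrix

namespace Cfsg.Agent.Lib.SLFpf.Tv

variable {K : Type*} [Field K] [CharP K 2]

lemma two_K : (2 : K) = 0 := CharTwo.two_eq_zero

/-- The transvection with centre the vector `(a, b)`. -/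
def tv (a b : K) : SL(2, K) :=
  ⟨!![1 + a * b, a * a; b * b, 1 + a * b], by
    have h2 : (2 : K) = 0 := two_K
    simp only [Matrix.det_fin_two_of]
    linear_combination (a * b) * h2⟩

@[simp] lemma tv_00 (a b : K) : (tv a b).1 0 0 = 1 + a * b := rfl
@[simp] lemma tv_01 (a b : K) : (tv a b).1 0 1 = a * a := rfl
@[simp] lemma tv_10 (a b : K) : (tv a b).1 1 0 = b * b := rfl
@[simp] lemma tv_11 (a b : K) : (tv a b).1 1 1 = 1 + a * b := rfl

/-- Equality of elements of `SL₂` by entries. -/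
lemma sl_ext {x y : SL(2, K)} (h00 : x.1 0 0 = y.1 0 0) (h01 : x.1 0 1 = y.1 0 1)
    (h10 : x.1 1 0 = y.1 1 0) (h11 : x.1 1 1 = y.1 1 1) : x = y := by
  apply Subtype.ext
  ext i j
  fin_cases i <;> fin_cases j <;> simp_all

lemma mul_00 (x y : SL(2, K)) : (x * y).1 0 0 = x.1 0 0 * y.1 0 0 + x.1 0 1 * y.1 1 0 := by
  change ((x.1 * y.1) 0 0) = _
  simp [Matrix.mul_apply, Fin.sum_univ_two]

lemma mul_01 (x y : SL(2, K)) : (x * y).1 0 1 = x.1 0 0 * y.1 0 1 + x.1 0 1 * y.1 1 1 := by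
  change ((x.1 * y.1) 0 1) = _
  simp [Matrix.mul_apply, Fin.sum_univ_two]

lemma mul_10 (x y : SL(2, K)) : (x * y).1 1 0 = x.1 1 0 * y.1 0 0 + x.1 1 1 * y.1 1 0 := by
  change ((x.1 * y.1) 1 0) = _
  simp [Matrix.mul_apply, Fin.sum_univ_two]

lemma mul_11 (x y : SL(2, K)) : (x * y).1 1 1 = x.1 1 0 * y.1 0 1 + x.1 1 1 * y.1 1 1 := by
  change ((x.1 * y.1) 1 1) = _
  simp [Matrix.mul_apply, Fin.sum_univ_two]

@[simp] lemma one_00 : (1 : SL(2, K)).1 0 0 = 1 := by simp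
@[simp] lemma one_01 : (1 : SL(2, K)).1 0 1 = 0 := by simp
@[simp] lemma one_10 : (1 : SL(2, K)).1 1 0 = 0 := by simp
@[simp] lemma one_11 : (1 : SL(2, K)).1 1 1 = 1 := by simp

lemma det_sl (x : SL(2, K)) : x.1 0 0 * x.1 1 1 - x.1 0 1 * x.1 1 0 = 1 := by
  have := x.2
  rwa [Matrix.det_fin_two] at this

lemma tv_mul_self (a b : K) : tv a b * tv a b = 1 := by
  have h2 : (2 : K) = 0 := two_K
  apply sl_ext
  · simp only [mul_00, tv_00, tv_01, tv_10, one_00]; linear_combination (a * b + a * a * b * b) * h2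
  · simp only [mul_01, tv_00, tv_01, tv_11, one_01]; linear_combination (a * a + a * a * a * b) * h2
  · simp only [mul_10, tv_00, tv_10, tv_11, one_10]; linear_combination (b * b + a * b * b * b) * h2
  · simp only [mul_11, tv_01, tv_10, tv_11, one_11]; linear_combination (a * b + a * a * b * b) * h2

lemma tv_inv (a b : K) : (tv a b)⁻¹ = tv a b := inv_eq_of_mul_eq_one_left (tv_mul_self a b)

lemma tv_zero : tv (0 : K) 0 = 1 := by
  apply sl_ext <;> simp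

lemma tv_add_right (a a' : K) : tv (a + a') 0 = tv a 0 * tv a' 0 := by
  have h2 : (2 : K) = 0 := two_K
  apply sl_ext
  · simp only [mul_00, tv_00, tv_01, tv_10]; ring
  · simp only [mul_01, tv_00, tv_01, tv_11]; linear_combination (a * a') * h2
  · simp only [mul_10, tv_00, tv_10, tv_11]; ring
  · simp only [mul_11, tv_01, tv_10, tv_11]; ring

lemma tv_add_right' (b b' : K) : tv 0 (b + b') = tv 0 b * tv 0 b' := by
  have h2 : (2 : K) = 0 := two_K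
  apply sl_ext
  · simp only [mul_00, tv_00, tv_01, tv_10]; ring
  · simp only [mul_01, tv_00, tv_01, tv_11]; ring
  · simp only [mul_10, tv_00, tv_10, tv_11]; linear_combination (b * b') * h2
  · simp only [mul_11, tv_01, tv_10, tv_11]; ring

/-- When `ω((a₁,b₁),(a₂,b₂)) = 1` the centre sum is the third involution of an `S₃`. -/
lemma tv_add (a₁ b₁ a₂ b₂ : K) (h : a₁ * b₂ + a₂ * b₁ = 1) :
    tv (a₁ + a₂) (b₁ + b₂) = tv a₁ b₁ * tv a₂ b₂ * tv a₁ b₁ := by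
  have h2 : (2 : K) = 0 := two_K
  apply sl_ext
  · simp only [mul_00, mul_01, mul_10, mul_11, tv_00, tv_01, tv_10, tv_11]
    grind
  · simp only [mul_00, mul_01, mul_10, mul_11, tv_00, tv_01, tv_10, tv_11]
    grind
  · simp only [mul_00, mul_01, mul_10, mul_11, tv_00, tv_01, tv_10, tv_11]
    grind
  · simp only [mul_00, mul_01, mul_10, mul_11, tv_00, tv_01, tv_10, tv_11]
    grind

lemma trace_tv_mul (a₁ b₁ a₂ b₂ : K) (h : a₁ * b₂ + a₂ * b₁ = 1) :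
    (tv a₁ b₁ * tv a₂ b₂).1 0 0 + (tv a₁ b₁ * tv a₂ b₂).1 1 1 = 1 := by
  have h2 : (2 : K) = 0 := two_K
  simp only [mul_00, mul_11, tv_00, tv_01, tv_10, tv_11]
  linear_combination (a₁ * b₂ + a₂ * b₁ + 1) * h + (1 + a₁ * b₁ + a₂ * b₂ + a₁ * b₁ * a₂ * b₂ - a₁ * b₂ * a₂ * b₁) * h2

lemma tv_swap (a b : K) : tv 1 1 * tv a b * tv (1 : K) 1 = tv b a := by
  have h2 : (2 : K) = 0 := two_K
  apply sl_ext <;> simp only [mul_00, mul_01, mul_10, mul_11, tv_00, tv_01, tv_10, tv_11] <;> grind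

/-- The diagonal element with entries `μ, μ⁻¹`. -/
def dg (μ : K) (hμ : μ ≠ 0) : SL(2, K) :=
  ⟨!![μ, 0; 0, μ⁻¹], by simp [Matrix.det_fin_two_of, hμ]⟩

@[simp] lemma dg_00 (μ : K) (hμ : μ ≠ 0) : (dg μ hμ).1 0 0 = μ := rfl
@[simp] lemma dg_01 (μ : K) (hμ : μ ≠ 0) : (dg μ hμ).1 0 1 = 0 := rfl
@[simp] lemma dg_10 (μ : K) (hμ : μ ≠ 0) : (dg μ hμ).1 1 0 = 0 := rfl
@[simp] lemma dg_11 (μ : K) (hμ : μ ≠ 0) : (dg μ hμ).1 1 1 = μ⁻¹ := rfl

lemma dg_mul_tv (μ : K) (hμ : μ ≠ 0) (a b : K) :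
    dg μ hμ * tv a b = tv (μ * a) (μ⁻¹ * b) * dg μ hμ := by
  have h2 : (2 : K) = 0 := two_K
  have hi : μ * μ⁻¹ = 1 := mul_inv_cancel₀ hμ
  apply sl_ext <;> simp only [mul_00, mul_01, mul_10, mul_11, tv_00, tv_01, tv_10, tv_11, dg_00, dg_01, dg_10, dg_11] <;> grind

lemma tv_mul_tv_diag (a b d : K) (ha : a ≠ 0) (hb : b ≠ 0) (hd : d ≠ 0) :
    tv a a⁻¹ * tv b b⁻¹ = tv (a * d) (a * d)⁻¹ * tv (b * d) (b * d)⁻¹ := by
  have h2 : (2 : K) = 0 := two_K
  have hai : a * a⁻¹ = 1 := mul_inv_cancel₀ ha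
  have hbi : b * b⁻¹ = 1 := mul_inv_cancel₀ hb
  have hdi : d * d⁻¹ = 1 := mul_inv_cancel₀ hd
  have e1 : (a * d)⁻¹ = a⁻¹ * d⁻¹ := by rw [mul_inv]
  have e2 : (b * d)⁻¹ = b⁻¹ * d⁻¹ := by rw [mul_inv]
  rw [e1, e2]
  apply sl_ext <;> simp only [mul_00, mul_01, mul_10, mul_11, tv_00, tv_01, tv_10, tv_11] <;> grind

lemma tv_comm_zero (b b' : K) : tv 0 b * tv 0 b' = tv 0 b' * tv (0 : K) b := by
  rw [← tv_add_right', ← tv_add_right', add_comm]

lemma tv_comm_zero' (a a' : K) : tv a 0 * tv a' 0 = tv a' 0 * tv a (0 : K) := by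
  rw [← tv_add_right, ← tv_add_right, add_comm]

end Cfsg.Agent.Lib.SLFpf.Tv
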